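import Cfsg.Agent.CharBasics.Central
import Cfsg.Agent.CharBasics.Ortho
import Cfsg.Agent.PiClasses.Derived
import Mathlib

/-!
At most `|G| / p` automorphism orbits in a nonabelian group, `p` the least prime divisor of the order.
-/

set_option autoImplicit false

namespace CfsgLib.AutOrbitBound

open Cfsg CfsgLib.CharBasics
open scoped commutatorElement

variable {G : Type*} [Group G]

/-- With a derived subgroup of order more than `p`, there are at most `|G| / p` classes. -/
theorem classes_le [Finite G] (h : (Nat.card G).minFac < Nat.card (commutator G)) :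
    (Nat.card G).minFac * Nat.card (ConjClasses G) ≤ Nat.card G := by
  classical
  haveI := Fintype.ofFinite G
  haveI := finite_irrCharacter (G := G)
  haveI := Fintype.ofFinite (IrrCharacter G)
  have hne : Nat.card G ≠ 1 := fun e => by
    haveI : Subsingleton G := (Nat.card_eq_one_iff_unique.mp e).1
    have h1 : Nat.card (commutator G) ≤ 1 := by
      rw [← e]; exact Nat.card_le_card_of_injective _ Subtype.val_injective
    have := Nat.minFac_pos (Nat.card G)
    omega
  have hp := Nat.minFac_prime hne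
  set p := (Nat.card G).minFac with hpdef
  set l := Nat.card {χ : IrrCharacter G // charDegree (χ : G → ℂ) = 1}
  have hidx : (p + 1) * l ≤ Nat.card G := by
    rw [← (commutator G).card_mul_index]
    exact Nat.mul_le_mul h PiClasses.card_linear_le_index
  obtain ⟨r, hr⟩ := Nat.exists_eq_add_of_le (Nat.one_le_pow 2 p hp.pos)
  have hsum : p ^ 2 * Nat.card (ConjClasses G) ≤ Nat.card G + r * l := by
    rw [← card_irr, Nat.card_eq_fintype_card (α := IrrCharacter G), ← sum_sq_degree (G := G)]
    have hl : l = (Finset.univ.filter fun χ : IrrCharacter G => charDegree (χ : G → ℂ) = 1).card := by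
      rw [← Fintype.card_subtype, ← Nat.card_eq_fintype_card]
    rw [hl, Finset.card_filter, Finset.mul_sum, ← Finset.card_univ, Finset.card_eq_sum_ones, Finset.mul_sum,
      ← Finset.sum_add_distrib]
    refine Finset.sum_le_sum fun χ _ => ?_
    by_cases h1 : charDegree (χ : G → ℂ) = 1
    · rw [if_pos h1, h1, hr]; simp
    · rw [if_neg h1, mul_one, mul_zero, add_zero]
      refine Nat.pow_le_pow_left ?_ 2
      exact Nat.minFac_le_of_dvd (by have := charDegree_pos χ.2; omega) (degree_dvd χ)
  have hsq : r + 1 = p * p := by rw [← sq, hr, add_comm]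
  have h2 : 1 ≤ p := hp.pos
  by_contra hcon
  push Not at hcon
  have hA : (p + 1) * (p ^ 2 * Nat.card (ConjClasses G)) ≤ (p + 1) * Nat.card G + r * ((p + 1) * l) := by
    nlinarith [Nat.mul_le_mul_left (p + 1) hsum]
  have hB : r * ((p + 1) * l) ≤ r * Nat.card G := Nat.mul_le_mul_left r hidx
  have hC : (p + 1) * (p * Nat.card G) < (p + 1) * (p ^ 2 * Nat.card (ConjClasses G)) := by
    rw [sq, mul_assoc]
    exact Nat.mul_lt_mul_of_pos_left (Nat.mul_lt_mul_of_pos_left hcon hp.pos) (Nat.succ_pos p)
  nlinarith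

/-- `(g h)^n` when commutators are central. -/
theorem mul_pow_central (hc : ∀ x y : G, ⁅x, y⁆ ∈ Subgroup.center G) (g h : G) :
    ∀ n : ℕ, (g * h) ^ n = g ^ n * h ^ n * ⁅h, g⁆ ^ n.choose 2 := by
  set d := ⁅h, g⁆ with hd
  have hdc : ∀ x : G, x * d = d * x := Subgroup.mem_center_iff.mp (hc h g)
  have hdp : ∀ (m : ℕ) (x : G), x * d ^ m = d ^ m * x := fun m x => (Commute.pow_right (hdc x) m : _)
  have h1 : h * g = g * h * d := by
    rw [hdc, hd, commutatorElement_def]; group
  have hsw : ∀ n : ℕ, h ^ n * g = g * h ^ n * d ^ n := by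
    intro n
    induction n with
    | zero => simp
    | succ n ih =>
      rw [pow_succ', mul_assoc, ih, ← mul_assoc, ← mul_assoc, h1]
      rw [show g * h * d * h ^ n = g * h * h ^ n * d by rw [mul_assoc (g * h), ← hdc, ← mul_assoc]]
      rw [pow_succ' d]; group
  intro n
  induction n with
  | zero => simp
  | succ n ih =>
    rw [pow_succ, ih, mul_assoc (g ^ n * h ^ n), ← hdp, ← mul_assoc, ← mul_assoc,
      mul_assoc (g ^ n) (h ^ n) g, hsw]
    rw [show g ^ n * (g * h ^ n * d ^ n) * h = g ^ n * g * (h ^ n * h) * d ^ n by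
      rw [← mul_assoc (g ^ n), mul_assoc _ (d ^ n) h, ← hdp n h]; group]
    rw [show (n + 1).choose 2 = n + n.choose 2 by rw [Nat.choose_succ_succ, Nat.choose_one_right],
      ← pow_succ, ← pow_succ, pow_add d]
    simp only [mul_assoc]

/-- A twisted translation: an automorphism moving everything outside `C(a)` out of its class. -/
theorem exists_moving [Finite G] {p : ℕ} (hp : p.Prime) (hcard : Nat.card (commutator G) = p)
    (hcen : commutator G ≤ Subgroup.center G) (a w : G) (k : ℕ) (c : G) (hcd : c ∈ commutator G) (hco : orderOf c = p)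
    (hwa : Commute w a) (hw : ∀ h, w * h = h * w * ⁅a, h⁆ ^ k)
    (hwp : w ^ p * c ^ (k * p.choose 2) = 1) (hwn : w ∉ commutator G) :
    ∃ σ : MulAut G, ∀ x : G, x ∉ Subgroup.centralizer ({a} : Set G) → ¬ IsConj x (σ x) := by
  classical
  have hzc : Subgroup.zpowers c = commutator G :=
    Subgroup.eq_of_le_of_card_ge (Subgroup.zpowers_le.mpr hcd) (by rw [Nat.card_zpowers, hco, hcard])
  have hcc : ∀ x : G, x * c = c * x := Subgroup.mem_center_iff.mp (hcen hcd)
  have hcp : ∀ (m : ℕ) (x : G), x * c ^ m = c ^ m * x := fun m x => (Commute.pow_right (hcc x) m : _)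
  have hex : ∀ g : G, ∃ i : ℕ, c ^ i = ⁅a, g⁆ := fun g => by
    have hm : ⁅a, g⁆ ∈ Subgroup.zpowers c := hzc ▸ Subgroup.commutator_mem_commutator (Subgroup.mem_top a) (Subgroup.mem_top g)
    exact (isOfFinOrder_of_finite c).mem_powers_iff_mem_zpowers.mpr hm
  choose e he using hex
  have hmul : ∀ g h : G, ⁅a, g * h⁆ = ⁅a, g⁆ * ⁅a, h⁆ := fun g h => by
    have : g * ⁅a, h⁆ = ⁅a, h⁆ * g :=
      Subgroup.mem_center_iff.mp (hcen (Subgroup.commutator_mem_commutator (Subgroup.mem_top a) (Subgroup.mem_top h))) g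
    rw [show ⁅a, g * h⁆ = ⁅a, g⁆ * (g * ⁅a, h⁆ * g⁻¹) by simp only [commutatorElement_def]; group, this,
      mul_inv_cancel_right]
  let ψ : ℕ → G := fun i => w ^ i * c ^ (k * i.choose 2)
  have hψadd : ∀ i j, ψ (i + j) = ψ i * ψ j * c ^ (k * (i * j)) := fun i j => by
    have hch : (i + j).choose 2 = i.choose 2 + j.choose 2 + i * j := by
      induction j with
      | zero => simp
      | succ j ih =>
        rw [← add_assoc, Nat.choose_succ_succ, Nat.choose_one_right, ih, Nat.choose_succ_succ, Nat.choose_one_right,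
          Nat.mul_succ]
        simp only [Nat.succ_eq_add_one, Nat.reduceAdd]
        omega
    simp only [ψ]
    rw [hch, mul_add, mul_add, pow_add, pow_add, pow_add, mul_assoc (w ^ i) (c ^ (k * i.choose 2)), ← mul_assoc (c ^ (k * i.choose 2)) (w ^ j),
      ← hcp (k * i.choose 2) (w ^ j)]
    group
  have hψp : ψ p = 1 := hwp
  have hψmod : ∀ i, ψ i = ψ (i % p) := fun i => by
    have key : ∀ q r, ψ (r + p * q) = ψ r := fun q r => by
      induction q with
      | zero => simp
      | succ q ih =>
        rw [Nat.mul_succ, ← add_assoc, hψadd, ih, hψp, mul_one]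
        have : c ^ (k * ((r + p * q) * p)) = 1 := by
          rw [← orderOf_dvd_iff_pow_eq_one, hco]; exact dvd_mul_of_dvd_right (dvd_mul_left p _) k
        rw [this, mul_one]
    conv_lhs => rw [← Nat.mod_add_div i p]
    exact key _ _
  have hew : ∀ (i : ℕ) (h : G), w ^ i * h = h * w ^ i * c ^ (k * (i * e h)) := by
    intro i h
    induction i with
    | zero => simp
    | succ i ih =>
      rw [pow_succ', mul_assoc, ih, ← mul_assoc, ← mul_assoc, hw, ← he, ← pow_mul]
      rw [mul_assoc (h * w), ← hcp _ (w ^ i), ← mul_assoc (h * w), mul_assoc, ← pow_add]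
      rw [show e h * k + k * (i * e h) = k * ((i + 1) * e h) by ring, mul_assoc h w]
  have headd : ∀ g h, e (g * h) % p = (e g + e h) % p := fun g h => by
    have h1 : c ^ e (g * h) = c ^ (e g + e h) := by rw [pow_add, he, he, he, hmul]
    have := pow_eq_pow_iff_modEq.mp h1
    rwa [hco] at this
  let f : G →* G := MonoidHom.mk' (fun g => g * ψ (e g)) fun g h => by
    have h1 : ψ (e g) * h = h * ψ (e g) * c ^ (k * (e g * e h)) := by
      simp only [ψ]
      rw [mul_assoc (w ^ e g), ← hcp _ h, ← mul_assoc, hew]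
      rw [← mul_assoc h, mul_assoc (h * w ^ e g), mul_assoc (h * w ^ e g), ← pow_add, ← pow_add, add_comm]
    rw [mul_assoc g (ψ (e g)), ← mul_assoc (ψ (e g)), h1, hψmod (e (g * h)), headd, ← hψmod, hψadd]
    rw [mul_assoc (h * ψ (e g)), ← hcp _ (ψ (e h))]
    group
  have hψcomm : ∀ i, Commute (ψ i) a := fun i => Commute.mul_left (hwa.pow_left i) ((hcp _ a).symm : _)
  have hinj : Function.Injective f := by
    rw [injective_iff_map_eq_one]
    intro g hg
    have hg' : g = (ψ (e g))⁻¹ := eq_inv_of_mul_eq_one_left hg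
    have hga : Commute g a := hg' ▸ (hψcomm _).inv_left
    have h0 : c ^ e g = c ^ 0 := by rw [he, pow_zero, commutatorElement_eq_one_iff_mul_comm]; exact hga.symm
    have hm := pow_eq_pow_iff_modEq.mp h0
    rw [hco] at hm
    have h0' : ψ (e g) = 1 := by
      rw [hψmod, (hm : e g % p = 0 % p), ← hψmod]; simp [ψ]
    rw [hg', h0', inv_one]
  refine ⟨MulEquiv.ofBijective f (Finite.injective_iff_bijective.mp hinj), fun x hx hcj => ?_⟩
  obtain ⟨y, hy⟩ := isConj_iff.mp hcj
  have h1 : ψ (e x) = ⁅x⁻¹, y⁆ := by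
    have hy' : y * x * y⁻¹ = x * ψ (e x) := hy
    rw [commutatorElement_def, inv_inv, mul_assoc, mul_assoc, show y * (x * y⁻¹) = y * x * y⁻¹ by group, hy',
      inv_mul_cancel_left]
  have h2 : w ^ e x ∈ commutator G := by
    have h3 : ψ (e x) ∈ commutator G := h1 ▸ Subgroup.commutator_mem_commutator (Subgroup.mem_top _) (Subgroup.mem_top _)
    exact (Subgroup.mul_mem_cancel_right _ (Subgroup.pow_mem _ hcd _)).mp h3
  have h3 : w ^ p ∈ commutator G := by
    rw [eq_inv_of_mul_eq_one_left hwp]; exact Subgroup.inv_mem _ (Subgroup.pow_mem _ hcd _)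
  have h4 : ¬ p ∣ e x := fun hd => hx (Subgroup.mem_centralizer_singleton_iff.mpr <| by
    have h5 : ⁅a, x⁆ = 1 := by
      rw [← he, ← orderOf_dvd_iff_pow_eq_one, hco]; exact hd
    exact (commutatorElement_eq_one_iff_mul_comm.mp h5).symm)
  apply hwn
  have h6 := Nat.gcd_eq_gcd_ab (e x) p
  rw [(Nat.coprime_comm.mp ((hp.coprime_iff_not_dvd).mpr h4) : Nat.gcd (e x) p = 1)] at h6
  rw [← zpow_one w, show (1 : ℤ) = ((1 : ℕ) : ℤ) from rfl, h6, zpow_add, zpow_mul, zpow_mul, zpow_natCast, zpow_natCast]
  exact Subgroup.mul_mem _ (Subgroup.zpow_mem _ h2 _) (Subgroup.zpow_mem _ h3 _)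

/-- A suitable automorphism when the derived subgroup is central of prime order. -/
theorem exists_sigma [Finite G] {p : ℕ} (hp : p.Prime) (hcard : Nat.card (commutator G) = p)
    (hcen : commutator G ≤ Subgroup.center G) (hidx : p * p ≤ (Subgroup.center G).index) :
    ∃ (a : G) (σ : MulAut G), a ∉ Subgroup.center G ∧
      ∀ x : G, x ∉ Subgroup.centralizer ({a} : Set G) → ¬ IsConj x (σ x) := by
  classical
  haveI := Fact.mk hp
  have hcomm : ∀ x y : G, ⁅x, y⁆ ∈ commutator G := fun x y =>
    Subgroup.commutator_mem_commutator (Subgroup.mem_top x) (Subgroup.mem_top y)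
  have hcc : ∀ x y : G, ⁅x, y⁆ ∈ Subgroup.center G := fun x y => hcen (hcomm x y)
  obtain ⟨c, hc⟩ := exists_prime_orderOf_dvd_card' (G := commutator G) p (dvd_of_eq hcard.symm)
  have hco : orderOf (c : G) = p := by rw [Subgroup.orderOf_coe, hc]
  by_cases hA : ∃ z ∈ Subgroup.center G, z ^ p = 1 ∧ z ∉ commutator G
  · obtain ⟨z, hz, hzp, hzn⟩ := hA
    obtain ⟨a, ha⟩ : ∃ a, a ∉ Subgroup.center G := by
      by_contra hcon; push Not at hcon
      rw [(Subgroup.eq_top_iff' _).mpr hcon, Subgroup.index_top] at hidx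
      nlinarith [hp.two_le]
    obtain ⟨σ, hσ⟩ := exists_moving hp hcard hcen a z 0 c c.2 hco ((Subgroup.mem_center_iff.mp hz a).symm : _)
      (fun h => by rw [pow_zero, mul_one]; exact (Subgroup.mem_center_iff.mp hz h).symm) (by simp [hzp]) hzn
    exact ⟨a, σ, ha, hσ⟩
  push Not at hA
  suffices h : ∃ a : G, a ∉ Subgroup.center G ∧ a ^ p * (c : G) ^ p.choose 2 = 1 by
    obtain ⟨a, ha, hap⟩ := h
    obtain ⟨σ, hσ⟩ := exists_moving hp hcard hcen a a 1 c c.2 hco rfl
      (fun h => by
        rw [pow_one, Subgroup.mem_center_iff.mp (hcc a h) (h * a), commutatorElement_def]; group)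
      (by rw [one_mul]; exact hap) (fun hm => ha (hcen hm))
    exact ⟨a, σ, ha, hσ⟩
  -- the p-th powers of the centre
  let pw : Subgroup.center G →* Subgroup.center G := MonoidHom.mk' (fun u => u ^ p)
    fun u v => Commute.mul_pow (Subtype.ext (Subgroup.mem_center_iff.mp v.2 u)) p
  let Zp : Subgroup G := pw.range.map (Subgroup.center G).subtype
  have hZp : ∀ x, x ∈ Zp ↔ ∃ u ∈ Subgroup.center G, u ^ p = x := fun x => by
    constructor
    · rintro ⟨y, ⟨u, rfl⟩, rfl⟩; exact ⟨u, u.2, rfl⟩
    · rintro ⟨u, hu, rfl⟩; exact ⟨_, ⟨⟨u, hu⟩, rfl⟩, rfl⟩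
  have hZpc : Zp ≤ Subgroup.center G := fun x hx => by
    obtain ⟨u, hu, rfl⟩ := (hZp x).mp hx; exact Subgroup.pow_mem _ hu p
  haveI : Zp.Normal := ⟨fun n hn g => by
    rw [Subgroup.mem_center_iff.mp (hZpc hn) g, mul_inv_cancel_right]; exact hn⟩
  have hZZ : Nat.card (Subgroup.center G) ≤ p * Nat.card Zp := by
    rw [show Zp = pw.range.map (Subgroup.center G).subtype from rfl,
      Subgroup.card_map_of_injective (Subgroup.subtype_injective _),
      ← pw.ker.card_mul_index, Subgroup.index_ker]
    refine Nat.mul_le_mul_right _ ?_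
    rw [← hcard]
    refine Nat.card_le_card_of_injective (fun x => (⟨(x : G), ?_⟩ : commutator G)) fun x y h => ?_
    · exact hA _ x.1.2 (congrArg Subtype.val (MonoidHom.mem_ker.mp x.2))
    · exact Subtype.ext (Subtype.ext (congrArg (fun t : commutator G => (t : G)) h))
  have hgp : ∀ g : G, g ^ p ∈ Subgroup.center G := fun g => by
    rw [Subgroup.mem_center_iff]
    intro y
    obtain ⟨hz⟩ : Nonempty (⁅g, y⁆ ^ p = 1) := ⟨by
      have := pow_card_eq_one' (G := commutator G) (x := ⟨⁅g, y⁆, hcomm g y⟩)
      rw [hcard] at this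
      exact congrArg Subtype.val this⟩
    have hsw : ∀ n : ℕ, g ^ n * y = ⁅g, y⁆ ^ n * y * g ^ n := by
      intro n
      induction n with
      | zero => simp
      | succ n ih =>
        have hgy : g * y = ⁅g, y⁆ * y * g := by rw [commutatorElement_def]; group
        have hcn := Subgroup.mem_center_iff.mp (Subgroup.pow_mem _ (hcc g y) n) g
        generalize ⁅g, y⁆ = d at ih hgy hcn ⊢
        calc g ^ (n + 1) * y = g * (g ^ n * y) := by rw [pow_succ', mul_assoc]
          _ = g * d ^ n * y * g ^ n := by rw [ih]; simp only [mul_assoc]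
          _ = d ^ n * (g * y) * g ^ n := by rw [hcn]; simp only [mul_assoc]
          _ = _ := by rw [hgy, pow_succ, pow_succ' g]; simp only [mul_assoc]
    rw [hsw, hz, one_mul]
  by_cases hck : (c : G) ^ p.choose 2 ∈ Zp
  · have hhom : ∀ g h : G, ((g * h) ^ p : G) * (g ^ p * h ^ p)⁻¹ ∈ Zp := fun g h => by
      obtain ⟨i, hi⟩ := (isOfFinOrder_of_finite (c : G)).mem_powers_iff_mem_zpowers.mpr
        (show ⁅h, g⁆ ∈ Subgroup.zpowers (c : G) by
          rw [Subgroup.eq_of_le_of_card_ge (Subgroup.zpowers_le.mpr c.2) (by rw [Nat.card_zpowers, hco, hcard])]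
          exact hcomm h g)
      have hm : ⁅h, g⁆ ^ p.choose 2 ∈ Zp := by
        rw [← (hi : (c : G) ^ i = ⁅h, g⁆), ← pow_mul, mul_comm, pow_mul]; exact Subgroup.pow_mem _ hck i
      rw [mul_pow_central hcc, Subgroup.mem_center_iff.mp (hZpc hm) (g ^ p * h ^ p), mul_inv_cancel_right]
      exact hm
    let f : G →* G ⧸ Zp := MonoidHom.mk' (fun g => ((g ^ p : G) : G ⧸ Zp)) fun g h => by
      rw [← QuotientGroup.mk_mul, eq_comm, QuotientGroup.eq]
      have h' := (inferInstance : Zp.Normal).mem_comm (hhom g h)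
      exact h'
    have hk : ¬ f.ker ≤ Subgroup.center G := fun hle => by
      have h1 : f.ker.index ≤ p := by
        rw [Subgroup.index_ker]
        have hle2 : f.range ≤ (Subgroup.center G).map (QuotientGroup.mk' Zp) := by
          rintro _ ⟨g, rfl⟩; exact ⟨g ^ p, hgp g, rfl⟩
        refine (Subgroup.card_le_of_le hle2).trans ?_
        have h2 : ((Subgroup.center G).map (QuotientGroup.mk' Zp)).comap (QuotientGroup.mk' Zp) = Subgroup.center G :=
          Subgroup.comap_map_eq_self (by rw [QuotientGroup.ker_mk']; exact hZpc)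
        have h3 := Subgroup.index_comap_of_surjective ((Subgroup.center G).map (QuotientGroup.mk' Zp))
          (QuotientGroup.mk'_surjective Zp)
        rw [h2] at h3
        have e1 := (Subgroup.center G).card_mul_index
        have e2 := ((Subgroup.center G).map (QuotientGroup.mk' Zp)).card_mul_index
        have e3 := Subgroup.card_eq_card_quotient_mul_card_subgroup Zp
        rw [← h3] at e2
        have h4 : Nat.card ((Subgroup.center G).map (QuotientGroup.mk' Zp)) * Nat.card Zp = Nat.card (Subgroup.center G) := by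
          refine Nat.eq_of_mul_eq_mul_right (Nat.pos_of_ne_zero (Subgroup.center G).index_ne_zero_of_finite) ?_
          rw [e1, e3, mul_right_comm, e2]
        exact Nat.le_of_mul_le_mul_right (h4.trans_le hZZ) Nat.card_pos
      have h2 : (Subgroup.center G).index ≤ f.ker.index :=
        Nat.le_of_dvd (Nat.pos_of_ne_zero Subgroup.index_ne_zero_of_finite) (Subgroup.index_dvd_of_le hle)
      nlinarith [hp.two_le]
    obtain ⟨g, hg, hgn⟩ := SetLike.not_le_iff_exists.mp hk
    obtain ⟨u, hu, hup⟩ := (hZp _).mp ((QuotientGroup.eq_one_iff _).mp hg)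
    obtain ⟨v, hv, hvp⟩ := (hZp _).mp hck
    refine ⟨g * (u * v)⁻¹, fun h => hgn ((Subgroup.mul_mem_cancel_right _ (Subgroup.inv_mem _ (Subgroup.mul_mem _ hu hv))).mp h), ?_⟩
    have huv : ∀ x, Commute x (u * v) := fun x => Subgroup.mem_center_iff.mp (Subgroup.mul_mem _ hu hv) x
    rw [(huv g).inv_right.mul_pow, inv_pow, (show Commute u v from Subgroup.mem_center_iff.mp hv u).mul_pow, hup, hvp,
      mul_inv_rev, ← mul_assoc, Subgroup.mem_center_iff.mp (Subgroup.inv_mem _ (Subgroup.pow_mem _ (hcen c.2) _)) (g ^ p)]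
    group
  · have hp2 : p = 2 := by
      by_contra hne
      refine hck ?_
      have h1 : (c : G) ^ p.choose 2 = 1 := by
        rw [← orderOf_dvd_iff_pow_eq_one, hco]
        exact hp.dvd_choose_self two_ne_zero (lt_of_le_of_ne hp.two_le (Ne.symm hne))
      rw [h1]; exact Zp.one_mem
    subst hp2
    simp only [Nat.choose_self, pow_one] at hck ⊢
    have hcc2 : (c : G) * c = 1 := by rw [← pow_two, ← hco, pow_orderOf_eq_one]
    have hdich : ∀ z ∈ Subgroup.center G, z ∈ Zp ∨ z * c ∈ Zp := by
      intro z hz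
      by_contra hcon
      push Not at hcon
      obtain ⟨hz1, hz2⟩ := hcon
      let F : Bool × Zp ⊕ Zp → Subgroup.center G :=
        Sum.elim (fun q => ⟨(if q.1 then (c : G) else 1) * q.2, Subgroup.mul_mem _ (by split_ifs; exacts [hcen c.2, Subgroup.one_mem _]) (hZpc q.2.2)⟩)
          (fun q => ⟨z * q, Subgroup.mul_mem _ hz (hZpc q.2)⟩)
      have hF : Function.Injective F := by
        have hcne : ∀ u v : Zp, (c : G) * u ≠ v := fun u v h => hck (by rw [eq_mul_inv_of_mul_eq h]; exact Subgroup.mul_mem _ v.2 (Subgroup.inv_mem _ u.2))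
        have hzne : ∀ u v : Zp, z * u ≠ v := fun u v h => hz1 (by rw [eq_mul_inv_of_mul_eq h]; exact Subgroup.mul_mem _ v.2 (Subgroup.inv_mem _ u.2))
        have hzcne : ∀ u v : Zp, z * u ≠ c * v := fun u v h => hz2 (by
          have : z * c = (v : G) * (u : G)⁻¹ := by
            rw [eq_mul_inv_of_mul_eq h, Subgroup.mem_center_iff.mp (hcen c.2) (c * v * (u : G)⁻¹), ← mul_assoc, ← mul_assoc, hcc2, one_mul]
          rw [this]; exact Subgroup.mul_mem _ v.2 (Subgroup.inv_mem _ u.2))
        rintro (⟨b, u⟩ | u) (⟨b', v⟩ | v) h <;> simp only [F, Sum.elim_inl, Sum.elim_inr, Subtype.mk.injEq] at h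
        · cases b <;> cases b' <;> simp only [if_true, if_false, Bool.false_eq_true, one_mul] at h
          · rw [Subtype.ext h]
          · exact absurd h.symm (hcne v u)
          · exact absurd h (hcne u v)
          · rw [Subtype.ext (mul_left_cancel h)]
        · cases b <;> simp only [if_true, if_false, Bool.false_eq_true, one_mul] at h
          · exact absurd h.symm (hzne v u)
          · exact absurd h.symm (hzcne v u)
        · cases b' <;> simp only [if_true, if_false, Bool.false_eq_true, one_mul] at h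
          · exact absurd h (hzne u v)
          · exact absurd h (hzcne u v)
        · rw [Subtype.ext (mul_left_cancel h)]
      have := Nat.card_le_card_of_injective F hF
      rw [Nat.card_sum, Nat.card_prod, Nat.card_eq_fintype_card (α := Bool), Fintype.card_bool] at this
      have := Nat.card_pos (α := Zp)
      omega
    by_contra hno
    push Not at hno
    have hall : ∀ g : G, g ∉ Subgroup.center G → g ^ 2 ∈ Zp := by
      intro g hg
      refine (hdich _ (hgp g)).resolve_right fun hm => ?_
      obtain ⟨u, hu, hu2⟩ := (hZp _).mp hm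
      refine hno (g * u⁻¹) (fun h => hg ((Subgroup.mul_mem_cancel_right _ (Subgroup.inv_mem _ hu)).mp h)) ?_
      rw [(show Commute g u from Subgroup.mem_center_iff.mp hu g).inv_right.mul_pow, inv_pow, hu2, mul_inv_rev, ← mul_assoc,
        Subgroup.mem_center_iff.mp (Subgroup.inv_mem _ (hcen c.2)) (g ^ 2), mul_assoc _ (g ^ 2), mul_inv_cancel, mul_one,
        inv_mul_cancel]
    obtain ⟨g, h, hgh⟩ : ∃ g h : G, ⁅h, g⁆ ≠ 1 := by
      by_contra hcon
      push Not at hcon
      have : commutator G = ⊥ := by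
        rw [commutator_def, eq_bot_iff, Subgroup.commutator_le]
        exact fun x _ y _ => Subgroup.mem_bot.mpr (hcon y x)
      rw [this, Subgroup.card_bot] at hcard
      omega
    have hhg : ¬ h * g = g * h := fun e => hgh (commutatorElement_eq_one_iff_mul_comm.mpr e)
    have hg : g ∉ Subgroup.center G := fun hm => hhg (Subgroup.mem_center_iff.mp hm h)
    have hh : h ∉ Subgroup.center G := fun hm => hhg (Subgroup.mem_center_iff.mp hm g).symm
    have hgh' : g * h ∉ Subgroup.center G := fun hm => hhg (by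
      refine mul_left_cancel (a := g) ?_
      rw [← mul_assoc, ← Subgroup.mem_center_iff.mp hm g])
    have h2 := hall _ hgh'
    rw [mul_pow_central hcc, Subgroup.mul_mem_cancel_left _ (Subgroup.mul_mem _ (hall g hg) (hall h hh)),
      Nat.choose_self, pow_one] at h2
    have hzc : Subgroup.zpowers ⁅h, g⁆ = commutator G :=
      Subgroup.eq_of_le_of_card_ge (Subgroup.zpowers_le.mpr (hcomm h g)) (by
        rw [Nat.card_zpowers, hcard, orderOf_eq_prime (x := ⁅h, g⁆) (p := 2)
          (by
            have := pow_card_eq_one' (G := commutator G) (x := ⟨⁅h, g⁆, hcomm h g⟩)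
            rw [hcard] at this
            exact congrArg Subtype.val this) hgh])
    exact hck ((Subgroup.zpowers_le.mpr h2) (hzc.symm ▸ c.2))

theorem orbits_le [Finite G] (hna : ¬ IsMulCommutative G) :
    (Nat.card G).minFac * Nat.card (MulAction.orbitRel.Quotient (MulAut G) G) ≤ Nat.card G := by
  classical
  have hne : Nat.card G ≠ 1 := fun e => hna <| by
    haveI := (Nat.card_eq_one_iff_unique.mp e).1
    exact ⟨⟨fun a b => Subsingleton.elim _ _⟩⟩
  have hp := Nat.minFac_prime hne
  set p := (Nat.card G).minFac with hpdef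
  have horb : ∀ x y : G, IsConj x y → y ∈ MulAction.orbit (MulAut G) x := fun x y hxy => by
    obtain ⟨c, hc⟩ := isConj_iff.mp hxy
    exact ⟨MulAut.conj c, hc⟩
  by_cases hbig : p < Nat.card (commutator G)
  · refine le_trans (Nat.mul_le_mul_left _ ?_) (classes_le hbig)
    let f : ConjClasses G → MulAction.orbitRel.Quotient (MulAut G) G :=
      Quotient.lift (fun x => Quotient.mk'' x) fun x y hxy =>
        (Quotient.sound' (MulAction.orbitRel_apply.mpr (horb x y hxy))).symm
    exact Nat.card_le_card_of_surjective f fun q => Quotient.inductionOn' q fun x => ⟨ConjClasses.mk x, rfl⟩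
  push Not at hbig
  have hcard : Nat.card (commutator G) = p := by
    refine le_antisymm hbig (Nat.minFac_le_of_dvd ?_ (Subgroup.card_subgroup_dvd_card _))
    refine (Subgroup.one_lt_card_iff_ne_bot _).mpr fun e => hna ⟨⟨fun a b => ?_⟩⟩
    exact commutatorElement_eq_one_iff_mul_comm.mp (Subgroup.mem_bot.mp
      (e ▸ Subgroup.commutator_mem_commutator (Subgroup.mem_top a) (Subgroup.mem_top b)))
  have hclass : ∀ x : G, x ∉ Subgroup.center G → p ≤ Nat.card ↥(ConjClasses.mk x).carrier := fun x hx => by
    refine Nat.minFac_le_of_dvd ?_ ?_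
    · by_contra hcon
      push Not at hcon
      refine hx (Subgroup.mem_center_iff.mpr fun g => ?_)
      have h1 : Subsingleton ↥(ConjClasses.mk x).carrier :=
        Finite.card_le_one_iff_subsingleton.mp (by omega)
      have h2 := congrArg Subtype.val (Subsingleton.elim
        (⟨g * x * g⁻¹, ConjClasses.mem_carrier_iff_mk_eq.mpr (ConjClasses.mk_eq_mk_iff_isConj.mpr (isConj_iff.mpr ⟨g⁻¹, by group⟩))⟩ : ↥(ConjClasses.mk x).carrier)
        ⟨x, ConjClasses.mem_carrier_mk⟩)
      have h3 : g * x * g⁻¹ = x := h2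
      exact mul_inv_eq_iff_eq_mul.mp h3
    · rw [← ConjAct.orbit_eq_carrier_conjClasses]
      rw [Nat.card_coe_set_eq, ← MulAction.index_stabilizer]
      exact (MulAction.stabilizer (ConjAct G) x).index_dvd_card
  have hcen : commutator G ≤ Subgroup.center G := by
    intro x hx
    by_contra hxc
    have hsub : (ConjClasses.mk x).carrier ⊆ ((commutator G : Set G) \ {1}) := by
      intro y hy
      obtain ⟨c, hc⟩ := isConj_iff.mp (ConjClasses.mk_eq_mk_iff_isConj.mp (ConjClasses.mem_carrier_iff_mk_eq.mp hy).symm)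
      refine ⟨hc ▸ (inferInstance : (commutator G).Normal).conj_mem x hx c, fun h1 => ?_⟩
      rw [Set.mem_singleton_iff] at h1
      rw [h1, conj_eq_one_iff] at hc
      exact hxc (hc ▸ Subgroup.one_mem _)
    have h1 := Set.ncard_le_ncard hsub
    rw [Set.ncard_sdiff_singleton_of_mem (show (1 : G) ∈ (commutator G : Set G) from Subgroup.one_mem _),
      ← Nat.card_coe_set_eq, ← Nat.card_coe_set_eq] at h1
    have h2 := hclass x hxc
    have : Nat.card ↥(commutator G : Set G) = p := hcard
    have := hp.pos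
    omega
  have hidx : p * p ≤ (Subgroup.center G).index := by
    have h1 : (Subgroup.center G).index ≠ 1 := fun h =>
      hna ⟨⟨fun a b => Subgroup.mem_center_iff.mp ((Subgroup.index_eq_one.mp h).symm ▸ Subgroup.mem_top b : b ∈ Subgroup.center G) a⟩⟩
    obtain ⟨m, hm⟩ := Nat.minFac_dvd (Subgroup.center G).index
    have hq := Nat.minFac_prime h1
    have hqp : p ≤ (Subgroup.center G).index.minFac :=
      Nat.minFac_le_of_dvd hq.two_le (dvd_trans (Nat.minFac_dvd _) (Subgroup.index_dvd_card _))
    have hm1 : 1 < m := by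
      rcases Nat.lt_or_ge 1 m with h | h
      · exact h
      exfalso
      interval_cases m
      · exact Subgroup.index_ne_zero_of_finite (by rw [hm, mul_zero] : (Subgroup.center G).index = 0)
      · haveI : Fact ((Subgroup.center G).index).minFac.Prime := ⟨hq⟩
        haveI : IsCyclic (G ⧸ Subgroup.center G) := isCyclic_of_prime_card (p := (Subgroup.center G).index.minFac)
          (by rw [← Subgroup.index_eq_card]; simpa using hm)
        exact hna ⟨⟨fun a b => commutative_of_cyclic_center_quotient (QuotientGroup.mk' (Subgroup.center G))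
          (by rw [QuotientGroup.ker_mk']) a b⟩⟩
    rw [hm]
    exact Nat.mul_le_mul hqp (Nat.minFac_le_of_dvd hm1 (dvd_trans (Dvd.intro_left _ hm.symm) (Subgroup.index_dvd_card _)))
  obtain ⟨a, σ, ha, hσ⟩ := exists_sigma hp hcard hcen hidx
  set K := Subgroup.centralizer ({a} : Set G) with hK
  haveI := Fintype.ofFinite G
  haveI := Fintype.ofFinite (MulAction.orbitRel.Quotient (MulAut G) G)
  have hZK : Subgroup.center G ≤ K := fun z hz =>
    Subgroup.mem_centralizer_singleton_iff.mpr (Subgroup.mem_center_iff.mp hz a).symm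
  have hKtop : K.index ≠ 1 := fun h => ha (Subgroup.mem_center_iff.mpr fun g => by
    exact Subgroup.mem_centralizer_singleton_iff.mp ((Subgroup.index_eq_one.mp h).symm ▸ Subgroup.mem_top g : g ∈ K))
  have hKp : p ≤ K.index := Nat.minFac_le_of_dvd (by
    have := K.index_ne_zero_of_finite; omega) K.index_dvd_card
  let w : G → ℚ := fun x => (1 : ℚ) / Nat.card (MulAction.orbit (MulAut G) x)
  have hQ : (Nat.card (MulAction.orbitRel.Quotient (MulAut G) G) : ℚ) = ∑ x : G, w x := by
    rw [← Finset.sum_fiberwise (s := Finset.univ) (g := fun x : G => (Quotient.mk'' x : MulAction.orbitRel.Quotient (MulAut G) G)) (f := w),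
      Nat.card_eq_fintype_card, ← Finset.card_univ, Finset.cast_card]
    refine Finset.sum_congr rfl fun q _ => Quotient.inductionOn' q fun x => ?_
    have hmem : ∀ y : G, (Quotient.mk'' y : MulAction.orbitRel.Quotient (MulAut G) G) = Quotient.mk'' x ↔
        y ∈ MulAction.orbit (MulAut G) x := fun y => Quotient.eq''.trans MulAction.orbitRel_apply
    rw [Finset.sum_congr rfl (fun y hy => by
      have hy' := (hmem y).mp (Finset.mem_filter.mp hy).2
      simp only [w]; rw [MulAction.orbit_eq_iff.mpr hy'] : ∀ y ∈ _, w y = w x), Finset.sum_const, nsmul_eq_mul]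
    have hc : (Finset.univ.filter fun y : G => (Quotient.mk'' y : MulAction.orbitRel.Quotient (MulAut G) G) = Quotient.mk'' x).card =
        Nat.card (MulAction.orbit (MulAut G) x) := by
      rw [← Fintype.card_subtype, ← Nat.card_eq_fintype_card]
      exact Nat.card_congr (Equiv.subtypeEquivRight hmem)
    simp only [w]
    rw [hc, mul_one_div_cancel]
    haveI := (MulAction.nonempty_orbit (M := MulAut G) x).to_subtype
    exact Nat.cast_ne_zero.mpr (Nat.card_pos (α := MulAction.orbit (MulAut G) x)).ne'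
  have hpQ : (0 : ℚ) < p := by exact_mod_cast hp.pos
  have hle : ∀ x : G, w x ≤ (if x ∈ Subgroup.center G then 1 - 1 / (p : ℚ) else 0) +
      (if x ∈ K then 1 / (2 * p : ℚ) else 0) + 1 / (2 * p : ℚ) := by
    intro x
    have hpos : (1 : ℚ) ≤ Nat.card (MulAction.orbit (MulAut G) x) := by
      haveI := (MulAction.nonempty_orbit (M := MulAut G) x).to_subtype
      exact_mod_cast Nat.one_le_iff_ne_zero.mpr (Nat.card_pos (α := MulAction.orbit (MulAut G) x)).ne'
    by_cases hz : x ∈ Subgroup.center G
    · rw [if_pos hz, if_pos (hZK hz)]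
      refine le_of_le_of_eq (b := (1 : ℚ)) ?_ (by field_simp; ring)
      exact (div_le_one (by linarith)).mpr hpos
    rw [if_neg hz, zero_add]
    have hcl : (ConjClasses.mk x).carrier ⊆ MulAction.orbit (MulAut G) x := fun y hy =>
      horb x y (ConjClasses.mk_eq_mk_iff_isConj.mp (ConjClasses.mem_carrier_iff_mk_eq.mp hy).symm)
    by_cases hk : x ∈ K
    · rw [if_pos hk]
      have h1 : (p : ℚ) ≤ Nat.card (MulAction.orbit (MulAut G) x) := by
        exact_mod_cast (hclass x hz).trans (Nat.card_mono (Set.toFinite _) hcl)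
      refine le_of_le_of_eq (one_div_le_one_div_of_le hpQ h1) (by field_simp; ring)
    · rw [if_neg hk, zero_add]
      have hsx : σ x ∈ MulAction.orbit (MulAut G) x := ⟨σ, rfl⟩
      have hcl' : (ConjClasses.mk (σ x)).carrier ⊆ MulAction.orbit (MulAut G) x := fun y hy => by
        rw [← MulAction.orbit_eq_iff.mpr hsx]
        exact horb _ y (ConjClasses.mk_eq_mk_iff_isConj.mp (ConjClasses.mem_carrier_iff_mk_eq.mp hy).symm)
      have hdis : Disjoint (ConjClasses.mk x).carrier (ConjClasses.mk (σ x)).carrier :=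
        Set.disjoint_left.mpr fun y h1 h2 => hσ x hk (ConjClasses.mk_eq_mk_iff_isConj.mp
          ((ConjClasses.mem_carrier_iff_mk_eq.mp h1).symm.trans (ConjClasses.mem_carrier_iff_mk_eq.mp h2)))
      have hzσ : σ x ∉ Subgroup.center G := fun h => hz (Subgroup.mem_center_iff.mpr fun g =>
        σ.injective (by rw [map_mul, map_mul]; exact Subgroup.mem_center_iff.mp h (σ g)))
      have h1 : 2 * p ≤ Nat.card (MulAction.orbit (MulAut G) x) := by
        have h := Set.ncard_le_ncard (Set.union_subset hcl hcl')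
        rw [Set.ncard_union_eq hdis, ← Nat.card_coe_set_eq, ← Nat.card_coe_set_eq, ← Nat.card_coe_set_eq] at h
        have := hclass x hz
        have := hclass _ hzσ
        omega
      refine one_div_le_one_div_of_le (by positivity) ?_
      exact_mod_cast h1
  have hmain := Finset.sum_le_sum (s := (Finset.univ : Finset G)) fun x _ => hle x
  rw [← hQ, Finset.sum_add_distrib, Finset.sum_add_distrib, ← Finset.sum_filter, ← Finset.sum_filter, Finset.sum_const,
    Finset.sum_const, Finset.sum_const, nsmul_eq_mul, nsmul_eq_mul, nsmul_eq_mul, ← Fintype.card_subtype,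
    ← Fintype.card_subtype, Finset.card_univ, ← Nat.card_eq_fintype_card, ← Nat.card_eq_fintype_card,
    ← Nat.card_eq_fintype_card] at hmain
  have hKn : (p : ℚ) * Nat.card K ≤ Nat.card G := by
    rw [← K.card_mul_index, Nat.cast_mul, mul_comm]
    exact mul_le_mul_of_nonneg_left (by exact_mod_cast hKp) (by positivity)
  have hZn : ((p : ℚ) * p) * Nat.card (Subgroup.center G) ≤ Nat.card G := by
    rw [← (Subgroup.center G).card_mul_index, Nat.cast_mul, mul_comm]
    exact mul_le_mul_of_nonneg_left (by exact_mod_cast hidx) (by positivity)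
  have h2 : (2 : ℚ) ≤ p := by exact_mod_cast hp.two_le
  have hfin : (p : ℚ) * Nat.card (MulAction.orbitRel.Quotient (MulAut G) G) ≤ Nat.card G := by
    have h3 := mul_le_mul_of_nonneg_left hmain hpQ.le
    refine h3.trans ?_
    have e : (p : ℚ) * ((Nat.card (Subgroup.center G) : ℚ) * (1 - 1 / p) + (Nat.card K : ℚ) * (1 / (2 * p)) + (Nat.card G : ℚ) * (1 / (2 * p))) =
        (p - 1) * Nat.card (Subgroup.center G) + Nat.card K / 2 + Nat.card G / 2 := by field_simp
    refine le_of_eq_of_le e ?_
    have hK0 : (0 : ℚ) ≤ Nat.card (Subgroup.center G) := Nat.cast_nonneg _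
    nlinarith [mul_nonneg (mul_nonneg (sub_nonneg.mpr h2) hK0) hpQ.le]
  exact_mod_cast hfin

end CfsgLib.AutOrbitBound
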