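import Mathlib

/-!
# An operator whose normaliser is transitive on nonzero vectors
-/

namespace CfsgLib.AutOrbits

open Polynomial

universe u

variable {p : ℕ} [Fact p.Prime] {V : Type u} [AddCommGroup V] [Module (ZMod p) V]

theorem aeval_apply_of_comm (σ : V ≃+ V) (T U : Module.End (ZMod p) V)
    (h : ∀ v, σ (T v) = U (σ v)) (g : (ZMod p)[X]) (v : V) : σ (aeval T g v) = aeval U g (σ v) := by
  induction g using Polynomial.induction_on' with
  | add a b ha hb => simp [ha, hb]
  | monomial n c =>
      simp only [aeval_monomial, Module.algebraMap_end_eq_smul_id, Module.End.mul_apply,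
        LinearMap.smul_apply, LinearMap.id_apply]
      have hn : ∀ v, σ ((T ^ n) v) = (U ^ n) (σ v) := by
        induction n with
        | zero => simp
        | succ n ih => intro v; simp [pow_succ, Module.End.mul_apply, ih, h]
      rw [← hn]
      exact ZMod.map_smul σ.toAddMonoidHom c _

theorem eq_zero_of_coprime (T : Module.End (ZMod p) V) {a b : (ZMod p)[X]} (hab : IsCoprime a b)
    {v : V} (ha : aeval T a v = 0) (hb : aeval T b v = 0) : v = 0 := by
  obtain ⟨s, t, hst⟩ := hab
  have : aeval T (s * a + t * b) v = v := by rw [hst]; simp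
  rw [← this]
  simp [ha, hb]

theorem exists_irreducible_kills (T : Module.End (ZMod p) V) (g : (ZMod p)[X]) :
    g ≠ 0 → ∀ v : V, v ≠ 0 → aeval T g v = 0 →
      ∃ f : (ZMod p)[X], Irreducible f ∧ ∃ u : V, u ≠ 0 ∧ aeval T f u = 0 := by
  induction g using WfDvdMonoid.induction_on_irreducible with
  | zero => intro h; exact absurd rfl h
  | unit u hu =>
      intro _ v hv h
      exact absurd (eq_zero_of_coprime T (isCoprime_self.2 hu) h h) hv
  | mul a i ha hi ih =>
      intro _ v hv h
      by_cases hav : aeval T a v = 0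
      · exact ih ha v hv hav
      · refine ⟨i, hi, aeval T a v, hav, ?_⟩
        simpa using h

theorem coprime_or_dvd {f : (ZMod p)[X]} (hf : Irreducible f) (g : (ZMod p)[X]) :
    IsCoprime f g ∨ f ∣ g :=
  (Classical.em (f ∣ g)).symm.imp_left hf.coprime_iff_not_dvd.2

/-- If normalising additive automorphisms of `T` are transitive on nonzero vectors and realise all
powers `k` prime to `q`, then `p` is a primitive root mod `q`. -/
theorem orderOf_eq_of_transitive {q : ℕ} [Fact q.Prime] (hpq : p ≠ q) [Nontrivial V]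
    (T : Module.End (ZMod p) V) (hT : aeval T (cyclotomic q (ZMod p)) = 0)
    (htr : ∀ v w : V, v ≠ 0 → w ≠ 0 → ∃ (σ : V ≃+ V) (k : ℕ),
      σ v = w ∧ ∀ u, σ (T u) = (T ^ k) (σ u))
    (hpow : ∀ k, k.Coprime q → ∃ σ : V ≃+ V, ∀ u, σ (T u) = (T ^ k) (σ u)) :
    orderOf (p : ZMod q) = q - 1 := by
  have hq : q.Prime := Fact.out
  obtain ⟨v₀, hv₀⟩ := exists_ne (0 : V)
  obtain ⟨f, hf, v, hv, hfv⟩ := exists_irreducible_kills T _ (cyclotomic_ne_zero q (ZMod p)) v₀ hv₀
    (by rw [hT]; rfl)
  have hprime : ∀ (w : V) (a b : (ZMod p)[X]), aeval T (a * b) w = 0 →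
      aeval T a w = 0 ∨ aeval T b w = 0 := by
    intro w a b hab
    by_cases hw : w = 0
    · simp [hw]
    obtain ⟨σ, k, hσv, hσ⟩ := htr w v hw hv
    have key : ∀ g : (ZMod p)[X], σ (aeval T g w) = aeval T (g.comp (X ^ k)) v := fun g => by
      rw [aeval_apply_of_comm σ T (T ^ k) hσ, hσv, aeval_comp]
      simp
    have h0 : aeval T ((a.comp (X ^ k)) * (b.comp (X ^ k))) v = 0 := by
      rw [← mul_comp, ← key, hab, map_zero]
    have hd : f ∣ (a.comp (X ^ k)) * (b.comp (X ^ k)) := by
      rcases coprime_or_dvd hf ((a.comp (X ^ k)) * (b.comp (X ^ k))) with h | h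
      · exact absurd (eq_zero_of_coprime T h hfv h0) hv
      · exact h
    rcases hf.prime.dvd_or_dvd hd with ⟨c, hc⟩ | ⟨c, hc⟩
    · left
      apply σ.injective
      rw [key, hc, mul_comm, map_mul, Module.End.mul_apply, hfv, map_zero, map_zero]
    · right
      apply σ.injective
      rw [key, hc, mul_comm, map_mul, Module.End.mul_apply, hfv, map_zero, map_zero]
  have hkill : ∀ (d : ℕ) (g : (ZMod p)[X]), g.natDegree = d → g ≠ 0 →
      ∀ w : V, aeval T g w = 0 → aeval T f w = 0 := by
    intro d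
    induction d using Nat.strong_induction_on with
    | _ d ih =>
      intro g hg hg0 w hw
      have h1 : aeval T (f * g) (v + w) = 0 := by
        have e1 : aeval T (f * g) v = 0 := by
          rw [mul_comm, map_mul, Module.End.mul_apply, hfv, map_zero]
        have e2 : aeval T (f * g) w = 0 := by rw [map_mul, Module.End.mul_apply, hw, map_zero]
        rw [map_add, e1, e2, add_zero]
      rcases hprime (v + w) f g h1 with h | h
      · rwa [map_add, hfv, zero_add] at h
      · rw [map_add, hw, add_zero] at h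
        obtain ⟨g', rfl⟩ : f ∣ g := by
          rcases coprime_or_dvd hf g with h' | h'
          · exact absurd (eq_zero_of_coprime T h' hfv h) hv
          · exact h'
        rcases hprime w f g' hw with h' | h'
        · exact h'
        · have hg'0 : g' ≠ 0 := right_ne_zero_of_mul hg0
          refine ih g'.natDegree ?_ g' rfl hg'0 w h'
          rw [← hg, natDegree_mul hf.ne_zero hg'0]
          exact Nat.lt_add_of_pos_left hf.natDegree_pos
  have hfT : aeval T f = 0 := LinearMap.ext fun w =>
    hkill _ _ rfl (cyclotomic_ne_zero q (ZMod p)) w (by rw [hT]; rfl)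
  have hdvd : f ∣ cyclotomic q (ZMod p) := by
    rcases coprime_or_dvd hf (cyclotomic q (ZMod p)) with h | h
    · exact absurd (eq_zero_of_coprime T h hfv (by rw [hT]; rfl)) hv
    · exact h
  have hcop : Nat.Coprime p q := (Nat.coprime_primes Fact.out hq).2 hpq
  have hdeg : f.natDegree = orderOf (p : ZMod q) := by
    rw [Polynomial.natDegree_of_dvd_cyclotomic_of_irreducible (p := p) (f := 1) (by simp) hcop hdvd hf,
      ← orderOf_units, ZMod.coe_unitOfCoprime, pow_one]
  have hcomp : ∀ k, k.Coprime q → f ∣ f.comp (X ^ k) := by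
    intro k hk
    obtain ⟨σ, hσ⟩ := hpow k hk
    rcases coprime_or_dvd hf (f.comp (X ^ k)) with h | h
    · refine absurd (eq_zero_of_coprime T h hfv ?_) hv
      obtain ⟨u, rfl⟩ := σ.surjective v
      rw [aeval_comp, map_pow, aeval_X, ← aeval_apply_of_comm σ T (T ^ k) hσ, hfT]
      simp
    · exact h
  have := Fact.mk hf
  have : CharP (AdjoinRoot f) p := charP_of_injective_algebraMap (algebraMap (ZMod p) _).injective p
  have : NeZero ((q : ℕ) : AdjoinRoot f) := ⟨by
    rw [Ne, CharP.cast_eq_zero_iff (AdjoinRoot f) p, Nat.prime_dvd_prime_iff_eq Fact.out hq]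
    exact hpq⟩
  set ζ := AdjoinRoot.root f
  have hfζ : aeval ζ f = 0 := by rw [AdjoinRoot.aeval_eq, AdjoinRoot.mk_self]
  have hζ : IsPrimitiveRoot ζ q := by
    rw [← isRoot_cyclotomic_iff, ← map_cyclotomic q (algebraMap (ZMod p) _), IsRoot, eval_map,
      ← aeval_def]
    obtain ⟨c, hc⟩ := hdvd
    rw [hc, map_mul, hfζ, zero_mul]
  have hroots : ∀ k ∈ Finset.Ico 1 q, ζ ^ k ∈ (f.map (algebraMap (ZMod p) (AdjoinRoot f))).roots := by
    intro k hk
    rw [Finset.mem_Ico] at hk
    rw [mem_roots ((Polynomial.map_ne_zero_iff (algebraMap (ZMod p) (AdjoinRoot f)).injective).2 hf.ne_zero),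
      IsRoot, eval_map, ← aeval_def]
    obtain ⟨c, hc⟩ := hcomp k (Nat.coprime_of_lt_prime (by omega) hk.2 hq).symm
    have h := congrArg (aeval ζ) hc
    rw [aeval_comp, map_mul, hfζ, zero_mul, map_pow, aeval_X] at h
    exact h
  have hge : q - 1 ≤ f.natDegree := by
    have hinj : Set.InjOn (fun k => ζ ^ k) (Finset.Ico 1 q : Finset ℕ) := fun a ha b hb h => by
      simp only [Finset.coe_Ico, Set.mem_Ico] at ha hb
      exact hζ.pow_inj ha.2 hb.2 h
    classical
    calc q - 1 = ((Finset.Ico 1 q).image (fun k => ζ ^ k)).card := by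
          rw [Finset.card_image_of_injOn hinj, Nat.card_Ico]
      _ ≤ (f.map (algebraMap (ZMod p) (AdjoinRoot f))).roots.toFinset.card := by
          refine Finset.card_le_card fun x hx => ?_
          obtain ⟨k, hk, rfl⟩ := Finset.mem_image.1 hx
          exact Multiset.mem_toFinset.2 (hroots k hk)
      _ ≤ Multiset.card (f.map (algebraMap (ZMod p) (AdjoinRoot f))).roots := Multiset.toFinset_card_le _
      _ ≤ (f.map (algebraMap (ZMod p) (AdjoinRoot f))).natDegree := card_roots' _
      _ ≤ f.natDegree := natDegree_map_le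
  have hle : f.natDegree ≤ q - 1 := by
    calc f.natDegree ≤ (cyclotomic q (ZMod p)).natDegree :=
          natDegree_le_of_dvd hdvd (cyclotomic_ne_zero _ _)
      _ = q - 1 := by rw [natDegree_cyclotomic, Nat.totient_prime hq]
  omega

/-- Converse: if `p` is a primitive root mod `q`, the centraliser of `T` is transitive on nonzero
vectors and every power prime to `q` is realised. -/
theorem exists_equiv_of_primitive {q : ℕ} [Fact q.Prime] (hpq : p ≠ q)
    (hord : orderOf (p : ZMod q) = q - 1)
    (T : Module.End (ZMod p) V) (hT : aeval T (cyclotomic q (ZMod p)) = 0) :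
    (∀ v w : V, v ≠ 0 → w ≠ 0 → ∃ σ : V ≃+ V, σ v = w ∧ ∀ u, σ (T u) = T (σ u)) ∧
    (∀ k, k.Coprime q → ∃ σ : V ≃+ V, ∀ u, σ (T u) = (T ^ k) (σ u)) := by
  have hq : q.Prime := Fact.out
  set Φ := cyclotomic q (ZMod p) with hΦdef
  have hndvd : ¬ p ∣ q := fun h => hpq ((Nat.prime_dvd_prime_iff_eq Fact.out hq).1 h)
  have hΦ : Irreducible Φ := ZMod.irreducible_of_dvd_cyclotomic_of_natDegree hndvd dvd_rfl (by
    rw [natDegree_cyclotomic, Nat.totient_prime hq, ← hord, ← orderOf_units, ZMod.coe_unitOfCoprime])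
  have := Fact.mk hΦ
  let φ : AdjoinRoot Φ →+* Module.End (ZMod p) V :=
    Ideal.Quotient.lift (Ideal.span {Φ}) (aeval T).toRingHom (fun g hg => by
      obtain ⟨c, rfl⟩ := Ideal.mem_span_singleton.1 hg
      change aeval T (Φ * c) = 0
      rw [map_mul, hT, zero_mul])
  have hroot : φ (AdjoinRoot.root Φ) = T := aeval_X T
  let inst : Module (AdjoinRoot Φ) V := Module.compHom V φ
  have hsmul : ∀ u : V, AdjoinRoot.root Φ • u = T u := fun u => LinearMap.congr_fun hroot u
  refine ⟨fun v w hv hw => ?_, fun k hk => ?_⟩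
  · let e : (Submodule.span (AdjoinRoot Φ) {v}) ≃ₗ[AdjoinRoot Φ] (Submodule.span (AdjoinRoot Φ) {w}) :=
      (LinearEquiv.toSpanNonzeroSingleton (AdjoinRoot Φ) V v hv).symm.trans
        (LinearEquiv.toSpanNonzeroSingleton (AdjoinRoot Φ) V w hw)
    obtain ⟨g, hg⟩ := Submodule.exists_linearEquiv_restrict_eq e
    refine ⟨g.toAddEquiv, ?_, fun u => ?_⟩
    · have h := hg ⟨v, Submodule.mem_span_singleton_self v⟩
      change g v = w
      rw [← h]
      have h1 : (LinearEquiv.toSpanNonzeroSingleton (AdjoinRoot Φ) V v hv).symm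
          ⟨v, Submodule.mem_span_singleton_self v⟩ = 1 := LinearEquiv.coord_self _ _ v hv
      simp only [e, LinearEquiv.trans_apply, h1, LinearEquiv.toSpanNonzeroSingleton_one]
    · change g (T u) = T (g u)
      rw [← hsmul, map_smul, hsmul]
  · have : CharP (AdjoinRoot Φ) p := charP_of_injective_algebraMap (algebraMap (ZMod p) _).injective p
    have : NeZero ((q : ℕ) : AdjoinRoot Φ) := ⟨by
      rw [Ne, CharP.cast_eq_zero_iff (AdjoinRoot Φ) p]
      exact hndvd⟩
    have hζ : IsPrimitiveRoot (AdjoinRoot.root Φ) q := by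
      rw [← isRoot_cyclotomic_iff, ← map_cyclotomic q (algebraMap (ZMod p) _), IsRoot, eval_map,
        ← aeval_def, AdjoinRoot.aeval_eq, AdjoinRoot.mk_self]
    have hζk : aeval (AdjoinRoot.root Φ ^ k) Φ = 0 := by
      have := isRoot_cyclotomic_iff.2 (hζ.pow_of_coprime k hk)
      rwa [← map_cyclotomic q (algebraMap (ZMod p) _), IsRoot, eval_map, ← aeval_def] at this
    let τ : AdjoinRoot Φ →+* AdjoinRoot Φ :=
      AdjoinRoot.lift (algebraMap (ZMod p) _) (AdjoinRoot.root Φ ^ k) hζk
    have : Module.Finite (ZMod p) (AdjoinRoot Φ) := (AdjoinRoot.powerBasis hΦ.ne_zero).finite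
    have : Finite (AdjoinRoot Φ) := Module.finite_of_finite (ZMod p)
    let τe : AdjoinRoot Φ ≃+* AdjoinRoot Φ :=
      RingEquiv.ofBijective τ (Finite.injective_iff_bijective.1 τ.injective)
    let b := Module.Basis.ofVectorSpace (AdjoinRoot Φ) V
    let σ : V ≃+ V := b.repr.toAddEquiv.trans
      ((Finsupp.mapRange.addEquiv τe.toAddEquiv).trans b.repr.symm.toAddEquiv)
    refine ⟨σ, fun u => ?_⟩
    have hτ : τ (AdjoinRoot.root Φ) = AdjoinRoot.root Φ ^ k := AdjoinRoot.lift_root _
    have key : ∀ (c : AdjoinRoot Φ) (u : V), σ (c • u) = τ c • σ u := fun c u => by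
      apply b.repr.injective
      ext i
      simp [σ, τe]
    have hpowk : ∀ (j : ℕ) (x : V), (AdjoinRoot.root Φ ^ j) • x = (T ^ j) x := fun j x => by
      induction j generalizing x with
      | zero => simp
      | succ j ih => rw [pow_succ, mul_smul, hsmul, ih, pow_succ, Module.End.mul_apply]
    rw [← hsmul, key, hτ, hpowk]

end CfsgLib.AutOrbits
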