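import Mathlib
import Cfsg.Agent.AutOrbits.Linear
import Cfsg.Agent.CharBasics.Burnside

/-!
# Groups with three automorphism orbits
-/

namespace CfsgLib.AutOrbits

universe u

open scoped Pointwise

variable {G : Type u} [Group G]

/-- The orbit of an element. -/
abbrev orbitMk (g : G) : MulAction.orbitRel.Quotient (MulAut G) G := Quotient.mk'' g

theorem orbitMk_eq_iff {g h : G} : orbitMk g = orbitMk h ↔ ∃ e : MulAut G, e h = g := by
  constructor
  · intro hgh
    exact MulAction.mem_orbit_iff.1 (MulAction.orbitRel_apply.1 (Quotient.exact' hgh))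
  · rintro ⟨e, rfl⟩
    exact Quotient.sound' (MulAction.orbitRel_apply.2 ⟨e, rfl⟩)

theorem orderOf_eq_of_orbit {g h : G} (hgh : orbitMk g = orbitMk h) : orderOf g = orderOf h := by
  obtain ⟨e, rfl⟩ := orbitMk_eq_iff.1 hgh
  exact orderOf_injective (e : G →* G) e.injective h

/-- If there are three orbits and elements of three different orders, then the orbit is determined
by the order. -/
theorem orbits_of_card_three [Finite G] (h3 : Nat.card (MulAction.orbitRel.Quotient (MulAut G) G) = 3)
    {a b : G} (ha : a ≠ 1) (hb : b ≠ 1) (hab : orderOf a ≠ orderOf b) :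
    (∀ g : G, g = 1 ∨ orderOf g = orderOf a ∨ orderOf g = orderOf b) ∧
      ∀ g h : G, orderOf g = orderOf h → ∃ e : MulAut G, e g = h := by
  have h1a : (1 : ℕ) ≠ orderOf a := fun h => ha (orderOf_eq_one_iff.1 h.symm)
  have h1b : (1 : ℕ) ≠ orderOf b := fun h => hb (orderOf_eq_one_iff.1 h.symm)
  let s : Fin 3 → MulAction.orbitRel.Quotient (MulAut G) G := ![orbitMk 1, orbitMk a, orbitMk b]
  let o : Fin 3 → ℕ := ![1, orderOf a, orderOf b]
  have hso : ∀ (i : Fin 3) (g : G), s i = orbitMk g → orderOf g = o i := by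
    intro i g hi
    fin_cases i
    · simpa [o] using (orderOf_eq_of_orbit hi).symm
    · exact (orderOf_eq_of_orbit hi).symm
    · exact (orderOf_eq_of_orbit hi).symm
  have ho : Function.Injective o := by
    intro i j h
    fin_cases i <;> fin_cases j <;> simp_all [o, eq_comm]
  have hs : Function.Bijective s := by
    rw [Nat.bijective_iff_injective_and_card]
    refine ⟨fun i j hij => ho ?_, by simp [h3]⟩
    obtain ⟨g, hg⟩ : ∃ g : G, orbitMk g = s i := Quotient.exists_rep (s i)
    exact (hso i g hg.symm).symm.trans (hso j g (hij ▸ hg.symm))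
  refine ⟨fun g => ?_, fun g h hgh => ?_⟩
  · obtain ⟨i, hi⟩ := hs.2 (orbitMk g)
    have := hso i g hi
    fin_cases i
    · exact Or.inl (orderOf_eq_one_iff.1 this)
    · exact Or.inr (Or.inl this)
    · exact Or.inr (Or.inr this)
  · obtain ⟨i, hi⟩ := hs.2 (orbitMk g)
    obtain ⟨j, hj⟩ := hs.2 (orbitMk h)
    obtain rfl : i = j := ho ((hso i g hi).symm.trans (hgh.trans (hso j h hj)))
    exact orbitMk_eq_iff.1 (hj.symm.trans hi)

theorem card_orbits_three {a b : G} (ha : a ≠ 1) (hb : b ≠ 1) (hab : orderOf a ≠ orderOf b)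
    (hall : ∀ g : G, g = 1 ∨ orderOf g = orderOf a ∨ orderOf g = orderOf b)
    (hA : ∀ g : G, orderOf g = orderOf a → ∃ e : MulAut G, e a = g)
    (hB : ∀ g : G, orderOf g = orderOf b → ∃ e : MulAut G, e b = g) :
    Nat.card (MulAction.orbitRel.Quotient (MulAut G) G) = 3 := by
  have h1a : (1 : ℕ) ≠ orderOf a := fun h => ha (orderOf_eq_one_iff.1 h.symm)
  have h1b : (1 : ℕ) ≠ orderOf b := fun h => hb (orderOf_eq_one_iff.1 h.symm)
  let s : Fin 3 → MulAction.orbitRel.Quotient (MulAut G) G := ![orbitMk 1, orbitMk a, orbitMk b]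
  have hs : Function.Bijective s := by
    refine ⟨fun i j hij => ?_, fun x => ?_⟩
    · have := orderOf_eq_of_orbit (G := G) (g := ![1, a, b] i) (h := ![1, a, b] j)
        (by fin_cases i <;> fin_cases j <;> exact hij)
      fin_cases i <;> fin_cases j <;> simp_all
    · obtain ⟨g, rfl⟩ : ∃ g : G, orbitMk g = x := Quotient.exists_rep x
      rcases hall g with rfl | h | h
      · exact ⟨0, rfl⟩
      · exact ⟨1, (orbitMk_eq_iff.2 (hA g h)).symm⟩
      · exact ⟨2, (orbitMk_eq_iff.2 (hB g h)).symm⟩
  rw [← Nat.card_eq_of_bijective s hs, Nat.card_fin]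

section ConjEnd

variable {p : ℕ} {P : Subgroup G} [P.Normal] [IsMulCommutative P]

open scoped Classical in
/-- Conjugation by `x` as an additive endomorphism of an abelian normal subgroup. -/
noncomputable def conjAdd (P : Subgroup G) [P.Normal] (x : G) : Additive P →+ Additive P :=
  MonoidHom.toAdditive (MulAut.conjNormal (H := P) x).toMonoidHom

theorem conjAdd_apply (x : G) (u : P) :
    ((conjAdd P x (Additive.ofMul u)).toMul : G) = x * u * x⁻¹ :=
  MulAut.conjNormal_apply x u

end ConjEnd

/-- Extending a pair of compatible automorphisms of a semidirect decomposition. -/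
theorem exists_extend [Finite G] {P : Subgroup G} [P.Normal] {x : G}
    (hc : P.IsComplement' (Subgroup.zpowers x)) (σ : P ≃* P) (k : ℕ)
    (hk : k.Coprime (orderOf x))
    (hσ : ∀ u : P, (σ (MulAut.conjNormal x u) : P) = MulAut.conjNormal (x ^ k) (σ u)) :
    ∃ e : MulAut G, (∀ u : P, e (u : G) = σ u) ∧ e x = x ^ k := by
  have hk' : (Nat.card (Subgroup.zpowers x)).Coprime k := by rw [Nat.card_zpowers]; exact hk.symm
  let fg : Subgroup.zpowers x ≃* Subgroup.zpowers x :=
    MulEquiv.mk' (powCoprime hk') fun a b => Commute.mul_pow (mul_comm' a b) k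
  let e0 := SemidirectProduct.mulEquivSubgroup hc
  have hh : ∀ (j : ℕ) (u : P), σ (MulAut.conjNormal (x ^ j) u) = MulAut.conjNormal ((x ^ k) ^ j) (σ u) := by
    intro j
    induction j with
    | zero => simp
    | succ j ih =>
      intro u
      rw [pow_succ, map_mul, MulAut.mul_apply, ih, hσ, ← MulAut.mul_apply, ← map_mul, ← pow_succ]
  let c : _ ≃* _ := SemidirectProduct.congr
    (φ₁ := (P.normalizerMonoidHom).comp (Subgroup.inclusion (P.normalizer_eq_top ▸ le_top)))
    (φ₂ := (P.normalizerMonoidHom).comp (Subgroup.inclusion (P.normalizer_eq_top ▸ le_top)))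
    σ fg (fun g => by
      obtain ⟨j, hj⟩ := (mem_powers_iff_mem_zpowers).2 g.2
      simp only at hj
      refine MulEquiv.ext fun u => Subtype.ext ?_
      have h := congrArg Subtype.val (hh j u)
      rw [MulAut.conjNormal_apply] at h
      have harg : (MulAut.conjNormal (x ^ j) u : P) = ⟨(g : G) * u * (g : G)⁻¹,
          (inferInstance : P.Normal).conj_mem _ u.2 _⟩ := Subtype.ext (by
        rw [MulAut.conjNormal_apply, hj])
      rw [harg] at h
      refine h.trans ?_
      have hfg : ((fg g : Subgroup.zpowers x) : G) = (x ^ k) ^ j := by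
        change ((g ^ k : Subgroup.zpowers x) : G) = _
        rw [Subgroup.coe_pow, ← hj, ← pow_mul, ← pow_mul, mul_comm]
      rw [← hfg]
      rfl)
  refine ⟨e0.symm.trans (c.trans e0), fun u => ?_, ?_⟩
  · have h1 : e0.symm (u : G) = SemidirectProduct.inl u := e0.symm_apply_eq.2 (by
      simp [e0, SemidirectProduct.mulEquivSubgroup, SemidirectProduct.monoidHomSubgroup])
    change e0 (c (e0.symm (u : G))) = _
    rw [h1, show c (SemidirectProduct.inl u) = SemidirectProduct.inl (σ u) from
      SemidirectProduct.ext rfl (map_one fg)]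
    simp [e0, SemidirectProduct.mulEquivSubgroup, SemidirectProduct.monoidHomSubgroup]
  · have h1 : e0.symm x = SemidirectProduct.inr ⟨x, Subgroup.mem_zpowers x⟩ := e0.symm_apply_eq.2 (by
      simp [e0, SemidirectProduct.mulEquivSubgroup, SemidirectProduct.monoidHomSubgroup])
    change e0 (c (e0.symm x)) = _
    rw [h1, show c (SemidirectProduct.inr ⟨x, Subgroup.mem_zpowers x⟩) =
      SemidirectProduct.inr (fg ⟨x, Subgroup.mem_zpowers x⟩) from SemidirectProduct.ext (map_one σ) rfl]
    simp [e0, fg, SemidirectProduct.mulEquivSubgroup, SemidirectProduct.monoidHomSubgroup]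
    rfl

open Polynomial in
/-- A fixed-point-free operator of prime order kills the cyclotomic polynomial. -/
theorem sum_pow_eq_zero {p : ℕ} {V : Type u} [AddCommGroup V] [Module (ZMod p) V]
    (T : Module.End (ZMod p) V) {q : ℕ} (hTq : T ^ q = 1) (hfix : ∀ v, T v = v → v = 0) :
    ∑ i ∈ Finset.range q, T ^ i = 0 := by
  refine LinearMap.ext fun v => hfix _ ?_
  have : T * ∑ i ∈ Finset.range q, T ^ i = ∑ i ∈ Finset.range q, T ^ i := by
    rw [Finset.mul_sum]
    have h1 := Finset.sum_range_succ' (fun i => T ^ i) q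
    rw [Finset.sum_range_succ, hTq, pow_zero, add_left_inj] at h1
    exact (Finset.sum_congr rfl fun i _ => (pow_succ' T i).symm).trans h1.symm
  exact congrArg (fun f : Module.End (ZMod p) V => f v) this

theorem natCast_eq_zero_of_grid {R : Type u} [Ring R] {q : ℕ} (hq : q.Prime) {A B : R}
    (hAB : Commute A B) (hA : A ^ q = 1) (hs : ∑ i ∈ Finset.range q, A ^ i = 0)
    (hB : ∀ i ∈ Finset.range q, ∑ j ∈ Finset.range q, (A ^ i * B) ^ j = 0) : (q : R) = 0 := by
  have h0 := Finset.sum_eq_zero hB
  rw [Finset.sum_comm] at h0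
  have key : ∀ j ∈ Finset.range q, j ≠ 0 → ∑ i ∈ Finset.range q, (A ^ i * B) ^ j = 0 := by
    intro j hj hj0
    have hcop : q.Coprime j := (hq.coprime_iff_not_dvd).2 fun h =>
      absurd (Nat.le_of_dvd (Nat.pos_of_ne_zero hj0) h) (not_le.2 (Finset.mem_range.1 hj))
    have hmod : ∀ n, A ^ n = A ^ (n % q) := fun n => by
      conv_lhs => rw [← Nat.mod_add_div n q, pow_add, pow_mul, hA, one_pow, mul_one]
    calc ∑ i ∈ Finset.range q, (A ^ i * B) ^ j
        = (∑ i ∈ Finset.range q, A ^ (i * j % q)) * B ^ j := by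
          rw [Finset.sum_mul]
          refine Finset.sum_congr rfl fun i _ => ?_
          rw [(hAB.pow_left i).mul_pow, ← pow_mul, ← hmod]
      _ = 0 := by
          have hinj : Set.InjOn (fun i => i * j % q) (Finset.range q : Finset ℕ) := by
            intro a ha b hb h
            have h' : a * j ≡ b * j [MOD q] := h
            have := Nat.ModEq.cancel_right_of_coprime (m := q) (c := j) hcop.gcd_eq_one h'
            rw [Finset.coe_range, Set.mem_Iio] at ha hb
            rwa [Nat.ModEq, Nat.mod_eq_of_lt ha, Nat.mod_eq_of_lt hb] at this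
          have himg : (Finset.range q).image (fun i => i * j % q) = Finset.range q := by
            refine Finset.eq_of_subset_of_card_le (fun y hy => ?_) (le_of_eq ?_)
            · obtain ⟨i, _, rfl⟩ := Finset.mem_image.1 hy
              exact Finset.mem_range.2 (Nat.mod_lt _ hq.pos)
            · rw [Finset.card_image_of_injOn hinj]
          rw [← Finset.sum_image (f := fun n => A ^ n) hinj, himg, hs, zero_mul]
  rw [Finset.sum_eq_single 0 key (fun h => absurd (Finset.mem_range.2 hq.pos) h)] at h0
  simpa using h0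

section Main

variable [Finite G] {p q : ℕ} [Fact p.Prime] [Fact q.Prime]

/-- Data carried by an elementary abelian normal Sylow subgroup and an element of order `q`. -/
structure Frame (p q : ℕ) (P : Subgroup G) (x : G) : Prop where
  normal : P.Normal
  comm : IsMulCommutative P
  expo : ∀ u ∈ P, u ^ p = 1
  memP : ∀ g : G, g ^ p = 1 → g ∈ P
  ord : orderOf x = q
  compl : P.IsComplement' (Subgroup.zpowers x)
  fpf : ∀ u ∈ P, x * u * x⁻¹ = u → u = 1

theorem primitive_and_transitive (hpq : p ≠ q) {P : Subgroup G} {x : G} (hF : Frame p q P x)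
    (hne : P ≠ ⊥) :
    ((∀ g h : G, orderOf g = orderOf h → ∃ e : MulAut G, e g = h) → orderOf (p : ZMod q) = q - 1) ∧
    (orderOf (p : ZMod q) = q - 1 →
      (∀ v w : P, v ≠ 1 → w ≠ 1 → ∃ e : MulAut G, e (v : G) = w) ∧
      ∀ k : ℕ, k.Coprime q → ∃ e : MulAut G, e x = x ^ k) := by
  have := hF.normal
  have := hF.comm
  let inst : CommGroup P := { (inferInstance : Group P) with mul_comm := mul_comm' }
  have instM : Module (ZMod p) (Additive P) := AddCommGroup.zmodModule fun v => by
    apply Additive.toMul.injective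
    change (v.toMul : P) ^ p = 1
    exact Subtype.ext (hF.expo _ v.toMul.2)
  let T : G → Module.End (ZMod p) (Additive P) := fun y => (conjAdd P y).toZModLinearMap p
  have hT : ∀ (y : G) (u : P), (((T y) (Additive.ofMul u)).toMul : G) = y * u * y⁻¹ := conjAdd_apply
  have hTpow : ∀ (k : ℕ) (u : P), (((T x ^ k) (Additive.ofMul u)).toMul : G) = x ^ k * u * (x ^ k)⁻¹ := by
    intro k
    induction k with
    | zero => intro u; simp
    | succ k ih =>
      intro u
      rw [pow_succ, Module.End.mul_apply, pow_succ]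
      obtain ⟨z, hz⟩ : ∃ z : P, (T x) (Additive.ofMul u) = Additive.ofMul z := ⟨_, rfl⟩
      have hzc : (z : G) = x * u * x⁻¹ := by rw [← hT x u, hz]; rfl
      rw [hz, ih, hzc]
      group
  have hTq : T x ^ q = 1 := by
    refine LinearMap.ext fun v => ?_
    obtain ⟨u, rfl⟩ := Additive.ofMul.surjective v
    apply Additive.toMul.injective
    refine Subtype.ext ?_
    rw [hTpow, ← hF.ord, pow_orderOf_eq_one]
    simp
  have hΦ : Polynomial.aeval (T x) (Polynomial.cyclotomic q (ZMod p)) = 0 := by
    rw [Polynomial.cyclotomic_prime, map_sum]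
    simp only [map_pow, Polynomial.aeval_X]
    refine sum_pow_eq_zero (T x) hTq fun v hv => ?_
    obtain ⟨u, rfl⟩ := Additive.ofMul.surjective v
    refine congrArg Additive.ofMul (Subtype.ext (hF.fpf _ u.2 ?_))
    rw [← hT x u, hv]
    rfl
  have : Nontrivial (Additive P) := by
    have : Nontrivial P := (Subgroup.nontrivial_iff_ne_bot _).2 hne
    infer_instance
  have hinv : ∀ (e : MulAut G) (g : G), g ∈ P → e g ∈ P := fun e g hg =>
    hF.memP _ (by rw [← map_pow, hF.expo g hg, map_one])
  -- the additive map induced by an automorphism sending `x` to a power of itself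
  have hres : ∀ (e : MulAut G) (k : ℕ), e x = x ^ k → ∃ σ : Additive P ≃+ Additive P,
      (∀ u : P, ((σ (Additive.ofMul u)).toMul : G) = e u) ∧ ∀ v, σ (T x v) = (T x ^ k) (σ v) := by
    intro e k he
    let σ0 : P ≃* P :=
      { toFun := fun u => ⟨e u, hinv e u u.2⟩
        invFun := fun u => ⟨e.symm u, hinv e.symm u u.2⟩
        left_inv := fun u => Subtype.ext (e.symm_apply_apply _)
        right_inv := fun u => Subtype.ext (e.apply_symm_apply _)
        map_mul' := fun u v => Subtype.ext (map_mul e _ _) }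
    refine ⟨MulEquiv.toAdditive σ0, fun u => rfl, fun v => ?_⟩
    obtain ⟨u, rfl⟩ := Additive.ofMul.surjective v
    apply Additive.toMul.injective
    refine Subtype.ext ?_
    obtain ⟨z, hz⟩ : ∃ z : P, (MulEquiv.toAdditive σ0) (Additive.ofMul u) = Additive.ofMul z := ⟨_, rfl⟩
    have hzc : (z : G) = e u := congrArg (fun w : Additive P => (w.toMul : G)) hz.symm
    rw [hz, hTpow]
    change e ((T x (Additive.ofMul u)).toMul : G) = _
    rw [hT x u, map_mul, map_mul, map_inv, he, hzc]
  refine ⟨fun htr => ?_, fun hord => ?_⟩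
  · refine orderOf_eq_of_transitive hpq (T x) hΦ (fun v w hv hw => ?_) (fun k hk => ?_)
    · obtain ⟨v, rfl⟩ := Additive.ofMul.surjective v
      obtain ⟨w, rfl⟩ := Additive.ofMul.surjective w
      have hov : ∀ u : P, Additive.ofMul u ≠ 0 → orderOf (u : G) = p := fun u hu => by
        refine orderOf_eq_prime (hF.expo _ u.2) fun h => hu ?_
        exact congrArg Additive.ofMul (Subtype.ext h)
      obtain ⟨e, he⟩ := htr (v : G) w ((hov v hv).trans (hov w hw).symm)
      -- move `e x` into `zpowers x` by an element of `P`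
      have hox : orderOf (e x) = q := (orderOf_injective (e : G →* G) e.injective x).trans hF.ord
      have hPc : Nat.card P * q = Nat.card G := by
        rw [← hF.compl.card_mul_card, Nat.card_zpowers, hF.ord]
      have hfac : (Nat.card G).factorization q = 1 := by
        have hq : q.Prime := Fact.out
        have hnd : ¬ q ∣ Nat.card P := fun h => by
          obtain ⟨y, hy⟩ := exists_prime_orderOf_dvd_card' q h
          have h2 := orderOf_dvd_of_pow_eq_one (hF.expo _ y.2)
          rw [Subgroup.orderOf_coe, hy] at h2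
          exact hpq ((Nat.prime_dvd_prime_iff_eq hq Fact.out).1 h2).symm
        rw [← hPc, Nat.factorization_mul Nat.card_pos.ne' hq.ne_zero, Finsupp.add_apply,
          Nat.factorization_eq_zero_of_not_dvd hnd, hq.factorization_self]
      let Q₁ : Sylow q G := Sylow.ofCard (Subgroup.zpowers (e x))
        (by rw [Nat.card_zpowers, hox, hfac, pow_one])
      let Q₂ : Sylow q G := Sylow.ofCard (Subgroup.zpowers x)
        (by rw [Nat.card_zpowers, hF.ord, hfac, pow_one])
      obtain ⟨g, hg⟩ := MulAction.exists_smul_eq G Q₁ Q₂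
      have hmem : g * e x * g⁻¹ ∈ Subgroup.zpowers x := by
        have h : MulAut.conj g • (Q₁ : Subgroup G) = (Q₂ : Subgroup G) := congrArg (fun Q : Sylow q G => (Q : Subgroup G)) hg
        rw [show (Q₂ : Subgroup G) = Subgroup.zpowers x from rfl] at h
        rw [← h]
        exact Subgroup.smul_mem_pointwise_smul (e x) (MulAut.conj g) _ (Subgroup.mem_zpowers _)
      obtain ⟨⟨c, u⟩, hcu⟩ := hF.compl.symm.2 g
      simp only at hcu
      have hu : (u : G) * e x * (u : G)⁻¹ ∈ Subgroup.zpowers x := by
        have : (u : G) * e x * (u : G)⁻¹ = (c : G)⁻¹ * (g * e x * g⁻¹) * c := by rw [← hcu]; group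
        rw [this]
        exact mul_mem (mul_mem (inv_mem c.2) hmem) c.2
      obtain ⟨k, hk⟩ := mem_powers_iff_mem_zpowers.2 hu
      obtain ⟨σ, hσ, hσT⟩ := hres (MulEquiv.trans e (MulAut.conj (u : G))) k hk.symm
      refine ⟨σ, k, ?_, hσT⟩
      apply Additive.toMul.injective
      refine Subtype.ext ?_
      rw [hσ]
      change (u : G) * e v * (u : G)⁻¹ = w
      rw [he]
      have hc := congrArg Subtype.val (mul_comm' (⟨u, u.2⟩ : P) w)
      simp only [Subgroup.coe_mul] at hc
      rw [hc, mul_inv_cancel_right]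
    · obtain ⟨e, he⟩ := htr x (x ^ k) (Nat.Coprime.orderOf_pow (by rw [hF.ord]; exact hk.symm)).symm
      obtain ⟨σ, -, hσT⟩ := hres e k he
      exact ⟨σ, hσT⟩
  · obtain ⟨h1, h2⟩ := exists_equiv_of_primitive hpq hord (T x) hΦ
    have ext : ∀ (σ : Additive P ≃+ Additive P) (k : ℕ), k.Coprime q →
        (∀ v, σ (T x v) = (T x ^ k) (σ v)) →
        ∃ e : MulAut G, (∀ u : P, e u = ((σ (Additive.ofMul u)).toMul : G)) ∧ e x = x ^ k := by
      intro σ k hk hσ
      refine exists_extend hF.compl (MulEquiv.toAdditive.symm σ) k (by rw [hF.ord]; exact hk)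
        fun u => Subtype.ext ?_
      rw [MulAut.conjNormal_apply]
      change ((σ (Additive.ofMul (MulAut.conjNormal x u))).toMul : G) = _
      have h3 : Additive.ofMul (MulAut.conjNormal x u) = T x (Additive.ofMul u) := rfl
      obtain ⟨z, hz⟩ : ∃ z : P, σ (Additive.ofMul u) = Additive.ofMul z := ⟨_, rfl⟩
      rw [h3, hσ, hz, hTpow]
      have : (MulEquiv.toAdditive.symm σ) u = z := congrArg Additive.toMul hz
      rw [this]
    refine ⟨fun v w hv hw => ?_, fun k hk => ?_⟩
    · obtain ⟨σ, hσ, hσT⟩ := h1 (Additive.ofMul v) (Additive.ofMul w)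
        (fun h => hv (Additive.ofMul.injective h)) (fun h => hw (Additive.ofMul.injective h))
      obtain ⟨e, he, -⟩ := ext σ 1 (Nat.coprime_one_left q) (fun u => by rw [pow_one]; exact hσT u)
      exact ⟨e, by rw [he, hσ]; rfl⟩
    · obtain ⟨σ, hσT⟩ := h2 k hk
      obtain ⟨e, -, he⟩ := ext σ k hk hσT
      exact ⟨e, he⟩

/-- From three orbits, with a characteristic abelian subgroup containing an element of order `p`. -/
theorem structure_of_three (hpq : p ≠ q)
    (hall : ∀ g : G, g = 1 ∨ orderOf g = p ∨ orderOf g = q)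
    (htr : ∀ g h : G, orderOf g = orderOf h → ∃ e : MulAut G, e g = h)
    (D : Subgroup G) [D.Normal] [IsMulCommutative D] (hD : ∀ (e : MulAut G), ∀ g ∈ D, e g ∈ D)
    {u : G} (hu : u ∈ D) (hup : orderOf u = p) {b : G} (hb : orderOf b = q) :
    ∃ n : ℕ, 1 ≤ n ∧ Nat.card G = p ^ n * q ∧
      (∀ P : Sylow p G, (P : Subgroup G).Normal ∧ IsMulCommutative (P : Subgroup G) ∧
        ∀ a ∈ (P : Subgroup G), a ^ p = 1) ∧
      orderOf (p : ZMod q) = q - 1 ∧
      ∀ x y : G, orderOf x = q → orderOf y = p → x * y * x⁻¹ ≠ y := by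
  have hp : p.Prime := Fact.out
  have hq : q.Prime := Fact.out
  have hnopq : ∀ g : G, orderOf g ≠ p * q := fun g h => by
    rcases hall g with rfl | h' | h'
    · rw [orderOf_one] at h
      exact hp.ne_one (Nat.eq_one_of_mul_eq_one_right h.symm)
    · rw [h'] at h
      exact hq.ne_one (mul_left_cancel₀ hp.ne_zero (by rw [mul_one]; exact h.symm))
    · rw [h'] at h
      exact hp.ne_one (mul_right_cancel₀ hq.ne_zero (by rw [one_mul]; exact h.symm))
  have hfpf : ∀ x y : G, orderOf x = q → orderOf y = p → x * y * x⁻¹ ≠ y := by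
    intro x y hx hy h
    rw [mul_inv_eq_iff_eq_mul] at h
    have hco : (orderOf y).Coprime (orderOf x) := by
      rw [hx, hy]; exact (Nat.coprime_primes hp hq).2 hpq
    apply hnopq (y * x)
    rw [(show Commute y x from h.symm).orderOf_mul_eq_mul_orderOf_of_coprime hco, hx, hy]
  have hDq : ∀ g ∈ D, orderOf g ≠ q := by
    intro g hg hgq
    have hDtop : ∀ z : G, z ∈ D := fun z => by
      rcases hall z with rfl | h | h
      · exact D.one_mem
      · obtain ⟨e, rfl⟩ := htr u z (hup.trans h.symm)
        exact hD e u hu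
      · obtain ⟨e, rfl⟩ := htr g z (hgq.trans h.symm)
        exact hD e g hg
    refine hfpf b u hb hup ?_
    have := congrArg Subtype.val (mul_comm' (⟨b, hDtop b⟩ : D) ⟨u, hu⟩)
    simp only [Subgroup.coe_mul] at this
    rw [this, mul_inv_cancel_right]
  have hmem : ∀ g : G, g ^ p = 1 → g ∈ D := fun g hg => by
    rcases eq_or_ne g 1 with rfl | hne
    · exact D.one_mem
    obtain ⟨e, rfl⟩ := htr u g (hup.trans (orderOf_eq_prime hg hne).symm)
    exact hD e u hu
  have hexp : ∀ g ∈ D, g ^ p = 1 := fun g hg => by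
    rcases hall g with rfl | h | h
    · exact one_pow p
    · rw [← h, pow_orderOf_eq_one]
    · exact absurd h (hDq g hg)
  have hPD : ∀ P : Sylow p G, (P : Subgroup G) = D := fun P => by
    have hle : (P : Subgroup G) ≤ D := fun g hg => by
      refine hmem g ?_
      obtain ⟨k, hk⟩ := IsPGroup.iff_orderOf.1 P.2 ⟨g, hg⟩
      rw [← Subgroup.orderOf_coe] at hk
      rcases hall g with rfl | h | h
      · exact one_pow p
      · rw [← h, pow_orderOf_eq_one]
      · rw [hk] at h
        exact absurd ((Nat.prime_dvd_prime_iff_eq hq hp).1 (hq.dvd_of_dvd_pow (dvd_of_eq h.symm))) hpq.symm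
    refine (P.is_maximal' ?_ hle).symm
    exact IsPGroup.iff_orderOf.2 fun g => by
      have hg := hexp g g.2
      obtain ⟨k, _, hk⟩ := (Nat.dvd_prime_pow hp (m := 1) (i := orderOf g)).1 (by
        rw [pow_one, ← Subgroup.orderOf_coe]; exact orderOf_dvd_of_pow_eq_one hg)
      exact ⟨k, hk⟩
  obtain ⟨P⟩ : Nonempty (Sylow p G) := inferInstance
  let inst : CommGroup D := { (inferInstance : Group D) with mul_comm := mul_comm' }
  have instM : Module (ZMod p) (Additive D) := AddCommGroup.zmodModule fun v => by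
    apply Additive.toMul.injective
    change (v.toMul : D) ^ p = 1
    exact Subtype.ext (hexp _ v.toMul.2)
  have hfac : (Nat.card G).factorization q = 1 := by
    have h0 : 0 < (Nat.card G).factorization q :=
      hq.factorization_pos_of_dvd Nat.card_pos.ne' (hb ▸ orderOf_dvd_natCard b)
    by_contra h1
    have h2 : q ^ 2 ∣ Nat.card G :=
      (hq.pow_dvd_iff_le_factorization Nat.card_pos.ne').2 (by omega)
    obtain ⟨B, hB⟩ := Sylow.exists_subgroup_card_pow_prime q h2
    have hBc : IsMulCommutative B := by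
      rcases IsPGroup.commutative_of_card_eq_prime_sq hB with h
      exact ⟨⟨h⟩⟩
    have hBord : ∀ c ∈ B, c ≠ 1 → orderOf c = q := fun c hc hc1 => by
      rcases hall c with h | h | h
      · exact absurd h hc1
      · have := B.orderOf_dvd_natCard hc
        rw [h, hB] at this
        exact absurd ((Nat.prime_dvd_prime_iff_eq hp hq).1 (hp.dvd_of_dvd_pow this)) hpq
      · exact h
    have hB1 : B ≠ ⊥ := fun h => by
      rw [h, Subgroup.card_bot] at hB
      exact absurd hB.symm (Nat.one_lt_pow two_ne_zero hq.one_lt).ne'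
    obtain ⟨a, ha, ha1⟩ := B.ne_bot_iff_exists_ne_one.1 hB1 |> fun ⟨x, hx⟩ => (⟨(x : G), x.2, fun h => hx (Subtype.ext h)⟩ : ∃ a ∈ B, a ≠ 1)
    obtain ⟨c, hc, hca⟩ : ∃ c ∈ B, c ∉ Subgroup.zpowers a := by
      by_contra h
      push Not at h
      have := Subgroup.card_le_of_le (K := Subgroup.zpowers a) h
      rw [hB, Nat.card_zpowers, hBord a ha ha1] at this
      nlinarith [hq.two_le]
    let T : G → Module.End (ZMod p) (Additive D) := fun y => (conjAdd D y).toZModLinearMap p
    have hT : ∀ (y : G) (z : D), (((T y) (Additive.ofMul z)).toMul : G) = y * z * y⁻¹ := conjAdd_apply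
    have hTm : ∀ y z : G, T (y * z) = T y * T z := fun y z => LinearMap.ext fun v => by
      obtain ⟨w, rfl⟩ := Additive.ofMul.surjective v
      apply Additive.toMul.injective
      refine Subtype.ext ?_
      rw [hT, Module.End.mul_apply]
      obtain ⟨r, hr⟩ : ∃ r : D, T z (Additive.ofMul w) = Additive.ofMul r := ⟨_, rfl⟩
      have hrc : (r : G) = z * w * z⁻¹ := by rw [← hT z w, hr]; rfl
      rw [hr, hT, hrc]
      group
    have hTp : ∀ (y : G) (n : ℕ), T (y ^ n) = T y ^ n := fun y n => by
      induction n with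
      | zero => exact LinearMap.ext fun v => by
                  obtain ⟨w, rfl⟩ := Additive.ofMul.surjective v
                  apply Additive.toMul.injective
                  exact Subtype.ext (by rw [hT]; simp)
      | succ n ih => rw [pow_succ, hTm, ih, pow_succ]
    have hT1 : T 1 = 1 := by simpa using hTp 1 0
    have hsum : ∀ y ∈ B, y ≠ 1 → ∑ j ∈ Finset.range q, T y ^ j = 0 := fun y hy hy1 => by
      refine sum_pow_eq_zero (T y) ?_ fun v hv => ?_
      · rw [← hTp, ← hBord y hy hy1, pow_orderOf_eq_one, hT1]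
      · obtain ⟨w, rfl⟩ := Additive.ofMul.surjective v
        by_contra hne
        refine hfpf y w (hBord y hy hy1) (orderOf_eq_prime (hexp _ w.2) fun h => hne
          (congrArg Additive.ofMul (Subtype.ext h))) ?_
        rw [← hT, hv]
        rfl
    have hqz := natCast_eq_zero_of_grid hq (A := T a) (B := T c) (by
      change T a * T c = T c * T a
      rw [← hTm, ← hTm]
      exact congrArg T (congrArg Subtype.val (mul_comm' (⟨a, ha⟩ : B) ⟨c, hc⟩)))
      (by rw [← hTp, ← hBord a ha ha1, pow_orderOf_eq_one, hT1]) (hsum a ha ha1)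
      (fun i _ => by
        rw [← hTp, ← hTm]
        refine hsum _ (mul_mem (pow_mem ha i) hc) fun h => hca ?_
        rw [eq_inv_of_mul_eq_one_right h]
        exact inv_mem (pow_mem (Subgroup.mem_zpowers a) i))
    have h3 := LinearMap.congr_fun hqz (Additive.ofMul (⟨u, hu⟩ : D))
    rw [Module.End.natCast_apply, LinearMap.zero_apply] at h3
    have h4 : u ^ q = 1 := by
      have := congrArg (fun v : Additive D => (v.toMul : G)) h3
      simpa using this
    have h5 := orderOf_dvd_of_pow_eq_one h4
    rw [hup] at h5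
    exact hpq ((Nat.prime_dvd_prime_iff_eq hp hq).1 h5)
  have hDc : Nat.card D = p ^ (Nat.card G).factorization p := by rw [← hPD P]; exact P.card_eq_multiplicity
  have hG : Nat.card G = p ^ (Nat.card G).factorization p * q := by
    conv_lhs => rw [← Nat.prod_factorization_pow_eq_self Nat.card_pos.ne']
    have hsupp : (Nat.card G).factorization.support = {p, q} := by
      ext r
      rw [Nat.support_factorization, Nat.mem_primeFactors, Finset.mem_insert, Finset.mem_singleton]
      constructor
      · rintro ⟨hr, hd, -⟩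
        have := Fact.mk hr
        obtain ⟨g, hg⟩ := exists_prime_orderOf_dvd_card' r hd
        rcases hall g with rfl | h | h
        · rw [orderOf_one] at hg; exact absurd hg.symm hr.ne_one
        · exact Or.inl (hg.symm.trans h)
        · exact Or.inr (hg.symm.trans h)
      · rintro (rfl | rfl)
        · exact ⟨hp, hup ▸ orderOf_dvd_natCard u, Nat.card_pos.ne'⟩
        · exact ⟨hq, hb ▸ orderOf_dvd_natCard b, Nat.card_pos.ne'⟩
    rw [Finsupp.prod, hsupp, Finset.prod_pair hpq, hfac, pow_one]
  have hcompl : D.IsComplement' (Subgroup.zpowers b) := by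
    refine Subgroup.isComplement'_of_coprime (by rw [Nat.card_zpowers, hb, hDc]; exact hG.symm) ?_
    rw [Nat.card_zpowers, hb, hDc]
    exact Nat.Coprime.pow_left _ ((Nat.coprime_primes hp hq).2 hpq)
  have hF : Frame p q D b := ⟨inferInstance, inferInstance, hexp, hmem, hb, hcompl, fun z hz h => by
    by_contra h1
    exact hfpf b z hb (orderOf_eq_prime (hexp z hz) h1) h⟩
  have hne : D ≠ ⊥ := fun h => by
    rw [h, Subgroup.mem_bot] at hu
    rw [hu, orderOf_one] at hup
    exact hp.ne_one hup.symm
  refine ⟨(Nat.card G).factorization p, hp.factorization_pos_of_dvd Nat.card_pos.ne'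
    (hup ▸ orderOf_dvd_natCard u), hG, fun P => ?_, (primitive_and_transitive hpq hF hne).1 htr, hfpf⟩
  rw [hPD P]
  exact ⟨inferInstance, inferInstance, hexp⟩

/-- Conversely, the structure gives three orbits. -/
theorem three_of_structure (hpq : p ≠ q) {n : ℕ} (hn : 1 ≤ n) (hG : Nat.card G = p ^ n * q)
    (hP : ∀ P : Sylow p G, (P : Subgroup G).Normal ∧ IsMulCommutative (P : Subgroup G) ∧
        ∀ a ∈ (P : Subgroup G), a ^ p = 1)
    (hord : orderOf (p : ZMod q) = q - 1)
    (hfpf : ∀ x y : G, orderOf x = q → orderOf y = p → x * y * x⁻¹ ≠ y) :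
    Nat.card (MulAction.orbitRel.Quotient (MulAut G) G) = 3 := by
  have hp : p.Prime := Fact.out
  have hq : q.Prime := Fact.out
  have hqp : (p ^ n).Coprime q := Nat.Coprime.pow_left _ ((Nat.coprime_primes hp hq).2 hpq)
  obtain ⟨P⟩ : Nonempty (Sylow p G) := inferInstance
  obtain ⟨hN, hC, hexp⟩ := hP P
  have hfp : (Nat.card G).factorization p = n := by
    rw [hG, Nat.factorization_mul (pow_ne_zero _ hp.ne_zero) hq.ne_zero, Finsupp.add_apply,
      Nat.factorization_pow, Finsupp.smul_apply, hp.factorization_self,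
      Nat.factorization_eq_zero_of_not_dvd (fun h => hpq ((Nat.prime_dvd_prime_iff_eq hp hq).1 h))]
    simp
  have hPc : Nat.card (P : Subgroup G) = p ^ n := by rw [P.card_eq_multiplicity, hfp]
  have hidx : (P : Subgroup G).index = q := by
    have := (P : Subgroup G).card_mul_index
    rw [hPc, hG] at this
    exact mul_left_cancel₀ (pow_ne_zero _ hp.ne_zero) this
  obtain ⟨x, hx⟩ := exists_prime_orderOf_dvd_card' q (G := G) (hG ▸ dvd_mul_left q _)
  obtain ⟨a, ha⟩ := exists_prime_orderOf_dvd_card' p (G := G) (hG ▸ dvd_mul_of_dvd_left (dvd_pow_self p (by omega)) _)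
  have hqmem : ∀ g : G, g ^ q ∈ (P : Subgroup G) := fun g => by
    rw [← QuotientGroup.eq_one_iff, QuotientGroup.mk_pow, ← hidx, Subgroup.index_eq_card,
      pow_card_eq_one']
  have hmem : ∀ g : G, g ^ p = 1 → g ∈ (P : Subgroup G) := fun g hg => by
    obtain ⟨s, t, hst⟩ := Int.isCoprime_iff_nat_coprime.2
      (show ((p : ℤ).natAbs).Coprime (q : ℤ).natAbs by simpa using (Nat.coprime_primes hp hq).2 hpq)
    have : g = (g ^ q) ^ t := by
      conv_lhs => rw [← zpow_one g, ← hst, zpow_add, mul_comm s, zpow_mul, zpow_natCast, hg, one_zpow, one_mul,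
        mul_comm t, zpow_mul, zpow_natCast]
    rw [this]
    exact Subgroup.zpow_mem _ (hqmem g) t
  have hcompl : (P : Subgroup G).IsComplement' (Subgroup.zpowers x) := by
    refine Subgroup.isComplement'_of_coprime (by rw [hPc, Nat.card_zpowers, hx, hG]) ?_
    rw [hPc, Nat.card_zpowers, hx]
    exact hqp
  have hF : Frame p q (P : Subgroup G) x := ⟨hN, hC, hexp, hmem, hx, hcompl, fun z hz h => by
    by_contra h1
    exact hfpf x z hx (orderOf_eq_prime (hexp z hz) h1) h⟩
  have ha1 : a ≠ 1 := fun h => hp.ne_one (by rw [← ha, h, orderOf_one])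
  have hx1 : x ≠ 1 := fun h => hq.ne_one (by rw [← hx, h, orderOf_one])
  have hamem : a ∈ (P : Subgroup G) := hmem a (ha ▸ pow_orderOf_eq_one a)
  have hne : (P : Subgroup G) ≠ ⊥ := fun h => ha1 (by rwa [h, Subgroup.mem_bot] at hamem)
  obtain ⟨h1, h2⟩ := (primitive_and_transitive hpq hF hne).2 hord
  refine card_orbits_three ha1 hx1 (by rw [ha, hx]; exact hpq) (fun g => ?_) (fun g hg => ?_) fun g hg => ?_
  · have hd : orderOf g ∣ q * p := orderOf_dvd_of_pow_eq_one (by rw [pow_mul, hexp _ (hqmem g)])
    rcases eq_or_ne g 1 with h | hg1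
    · exact Or.inl h
    rw [ha, hx]
    rcases (Nat.dvd_mul.1 hd) with ⟨d₁, d₂, hd₁, hd₂, hdd⟩
    rcases (Nat.dvd_prime hq).1 hd₁ with h₁ | h₁ <;> rcases (Nat.dvd_prime hp).1 hd₂ with h₂ | h₂ <;>
      rw [h₁, h₂] at hdd
    · exact absurd (orderOf_eq_one_iff.1 hdd.symm) hg1
    · exact Or.inr (Or.inl (by rw [← hdd, one_mul]))
    · exact Or.inr (Or.inr (by rw [← hdd, mul_one]))
    · exfalso
      refine hfpf (g ^ p) (g ^ q) ?_ ?_ ?_
      · rw [orderOf_pow' g hp.ne_zero, ← hdd, Nat.gcd_mul_left_left, Nat.mul_div_cancel _ hp.pos]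
      · rw [orderOf_pow' g hq.ne_zero, ← hdd, Nat.gcd_mul_right_left, Nat.mul_div_cancel_left _ hq.pos]
      · rw [← pow_add, add_comm, pow_add, mul_inv_cancel_right]
  · have hgm : g ∈ (P : Subgroup G) := hmem g (by rw [← ha, ← hg, pow_orderOf_eq_one])
    refine h1 ⟨a, hamem⟩ ⟨g, hgm⟩ (fun h => ha1 (congrArg Subtype.val h)) fun h => ?_
    have h' : g = 1 := congrArg Subtype.val h
    rw [h', orderOf_one, ha] at hg
    exact hp.ne_one hg.symm
  · have hfq : (Nat.card G).factorization q = 1 := by
      rw [hG, Nat.factorization_mul (pow_ne_zero _ hp.ne_zero) hq.ne_zero, Finsupp.add_apply,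
        Nat.factorization_eq_zero_of_not_dvd ((hq.coprime_iff_not_dvd).1 hqp.symm), hq.factorization_self]
    let Q₁ : Sylow q G := Sylow.ofCard (Subgroup.zpowers x) (by rw [Nat.card_zpowers, hx, hfq, pow_one])
    let Q₂ : Sylow q G := Sylow.ofCard (Subgroup.zpowers g) (by rw [Nat.card_zpowers, hg, hx, hfq, pow_one])
    obtain ⟨c, hc⟩ := MulAction.exists_smul_eq G Q₂ Q₁
    have hmemc : c * g * c⁻¹ ∈ Subgroup.zpowers x := by
      have h : MulAut.conj c • (Q₂ : Subgroup G) = (Q₁ : Subgroup G) := congrArg (fun Q : Sylow q G => (Q : Subgroup G)) hc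
      rw [show (Q₁ : Subgroup G) = Subgroup.zpowers x from rfl] at h
      rw [← h]
      exact Subgroup.smul_mem_pointwise_smul g (MulAut.conj c) _ (Subgroup.mem_zpowers _)
    obtain ⟨k, hk⟩ := mem_powers_iff_mem_zpowers.2 hmemc
    simp only at hk
    have hkc : k.Coprime q := by
      refine (Nat.coprime_comm.1 ((hq.coprime_iff_not_dvd).2 fun hd => ?_))
      obtain ⟨m, rfl⟩ := hd
      rw [pow_mul, ← hx, pow_orderOf_eq_one, one_pow, eq_mul_inv_iff_mul_eq, one_mul, left_eq_mul] at hk
      rw [hk, orderOf_one, hx] at hg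
      exact hq.ne_one hg.symm
    obtain ⟨e, he⟩ := h2 k hkc
    refine ⟨e.trans (MulAut.conj c⁻¹), ?_⟩
    change c⁻¹ * e x * (c⁻¹)⁻¹ = g
    rw [he, hk]
    group

end Main

end CfsgLib.AutOrbits
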